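import Mathlib

/-!
Binary coset actions in group-theoretic form, and a lemma on families of scalar multiples of an additive subgroup of a
finite field.
-/

set_option autoImplicit false

namespace Cfsg.Agent.H8

/-- The action on the cosets of `H` is binary, in terms of conjugates of `H`. -/
def BinaryOn {G : Type*} [Group G] (H : Subgroup G) : Prop :=
  ∀ (ι : Type) [Finite ι] (a z : ι → G),
    (∀ i j, ∃ g, (a i)⁻¹ * ((z i)⁻¹ * g) * a i ∈ H ∧ (a j)⁻¹ * ((z j)⁻¹ * g) * a j ∈ H) →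
      ∃ g, ∀ i, (a i)⁻¹ * ((z i)⁻¹ * g) * a i ∈ H

/-- The same property in the language of the action on cosets. -/
theorem binaryOn_iff {G : Type*} [Group G] (H : Subgroup G) :
    (∀ (n : ℕ) (I J : Fin n → G ⧸ H), 2 ≤ n →
      (∀ i j : Fin n, i ≠ j → ∃ g : G, g • I i = J i ∧ g • I j = J j) → ∃ g : G, ∀ i, g • I i = J i) ↔
      BinaryOn H := by
  have key : ∀ a z g : G, g • (QuotientGroup.mk a : G ⧸ H) = QuotientGroup.mk (z * a) ↔
      a⁻¹ * (z⁻¹ * g) * a ∈ H := by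
    intro a z g
    rw [eq_comm, MulAction.Quotient.smul_mk, QuotientGroup.eq, smul_eq_mul, mul_inv_rev]
    rw [show a⁻¹ * z⁻¹ * (g * a) = a⁻¹ * (z⁻¹ * g) * a by group]
  constructor
  · intro h ι _ a z hp
    haveI := Fintype.ofFinite ι
    rcases le_or_gt 2 (Fintype.card ι) with hn | hn
    · let e := (Fintype.equivFin ι).symm
      obtain ⟨g, hg⟩ := h (Fintype.card ι) (fun i => QuotientGroup.mk (a (e i)))
        (fun i => QuotientGroup.mk (z (e i) * a (e i))) hn (fun i j _ => by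
          obtain ⟨g, h1, h2⟩ := hp (e i) (e j)
          exact ⟨g, (key _ _ _).2 h1, (key _ _ _).2 h2⟩)
      refine ⟨g, fun i => ?_⟩
      have := (key _ _ _).1 (hg (e.symm i))
      rwa [e.apply_symm_apply] at this
    · rcases isEmpty_or_nonempty ι with he | ⟨⟨i⟩⟩
      · exact ⟨1, fun i => isEmptyElim i⟩
      · haveI : Subsingleton ι := Fintype.card_le_one_iff_subsingleton.1 (by omega)
        exact ⟨z i, fun j => by rw [Subsingleton.elim j i]; simp⟩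
  · intro h n I J hn hp
    choose a ha using fun i => QuotientGroup.mk_surjective (I i)
    choose b hb using fun i => QuotientGroup.mk_surjective (J i)
    have hJ : ∀ i, J i = QuotientGroup.mk (b i * (a i)⁻¹ * a i) := fun i => by rw [inv_mul_cancel_right, hb]
    obtain ⟨g, hg⟩ := h (Fin n) a (fun i => b i * (a i)⁻¹) fun i j => by
      rcases eq_or_ne i j with rfl | hij
      · exact ⟨b i * (a i)⁻¹, by simp, by simp⟩
      obtain ⟨g, h1, h2⟩ := hp i j hij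
      exact ⟨g, (key _ _ _).1 (by rw [ha, h1, hJ]), (key _ _ _).1 (by rw [ha, h2, hJ])⟩
    refine ⟨g, fun i => ?_⟩
    have := (key (a i) (b i * (a i)⁻¹) g).2 (hg i)
    rw [ha, ← hJ] at this
    exact this

theorem BinaryOn.map {G K : Type*} [Group G] [Group K] (e : G ≃* K) {H : Subgroup G} (h : BinaryOn H) :
    BinaryOn (H.map e.toMonoidHom) := by
  have key : ∀ a z g : K, a⁻¹ * (z⁻¹ * g) * a ∈ H.map e.toMonoidHom ↔
      (e.symm a)⁻¹ * ((e.symm z)⁻¹ * e.symm g) * e.symm a ∈ H := by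
    intro a z g
    rw [Subgroup.mem_map_equiv]
    simp only [map_mul, map_inv]
  intro ι _ a z hp
  obtain ⟨g, hg⟩ := h ι (fun i => e.symm (a i)) (fun i => e.symm (z i)) fun i j => by
    obtain ⟨g, h1, h2⟩ := hp i j
    exact ⟨e.symm g, (key _ _ _).1 h1, (key _ _ _).1 h2⟩
  exact ⟨e g, fun i => (key _ _ _).2 (by rw [e.symm_apply_apply]; exact hg i)⟩

/-- A witness on three points refuting binarity. -/
theorem not_binaryOn_triple {G : Type*} [Group G] {H : Subgroup G} {a₀ a₁ a₂ z₀ z₁ z₂ g₀ g₁ g₂ : G}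
    (h01 : a₀⁻¹ * (z₀⁻¹ * g₂) * a₀ ∈ H ∧ a₁⁻¹ * (z₁⁻¹ * g₂) * a₁ ∈ H)
    (h02 : a₀⁻¹ * (z₀⁻¹ * g₁) * a₀ ∈ H ∧ a₂⁻¹ * (z₂⁻¹ * g₁) * a₂ ∈ H)
    (h12 : a₁⁻¹ * (z₁⁻¹ * g₀) * a₁ ∈ H ∧ a₂⁻¹ * (z₂⁻¹ * g₀) * a₂ ∈ H)
    (hno : ∀ g, a₀⁻¹ * (z₀⁻¹ * g) * a₀ ∈ H → a₁⁻¹ * (z₁⁻¹ * g) * a₁ ∈ H → a₂⁻¹ * (z₂⁻¹ * g) * a₂ ∈ H → False) :
    ¬ BinaryOn H := by
  intro hb
  obtain ⟨g, hg⟩ := hb (Fin 3) ![a₀, a₁, a₂] ![z₀, z₁, z₂] fun i j => by
    fin_cases i <;> fin_cases j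
    exacts [⟨g₂, h01.1, h01.1⟩, ⟨g₂, h01.1, h01.2⟩, ⟨g₁, h02.1, h02.2⟩,
      ⟨g₂, h01.2, h01.1⟩, ⟨g₂, h01.2, h01.2⟩, ⟨g₀, h12.1, h12.2⟩,
      ⟨g₁, h02.2, h02.1⟩, ⟨g₀, h12.2, h12.1⟩, ⟨g₁, h02.2, h02.2⟩]
  exact hno g (hg 0) (hg 1) (hg 2)

/-- A family of scalar multiples of a proper non-zero additive subgroup of a finite field for which simultaneous
congruences are not decided by pairs. -/
theorem exists_bad_family {F : Type*} [Field F] [Finite F] (A : AddSubgroup F) (h0 : ∃ w ∈ A, w ≠ 0)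
    (h1 : ∃ w, w ∉ A) :
    ∃ (ι : Type) (_ : Finite ι) (c : ι → Fˣ) (z : ι → F),
      (∀ i j, ∃ g, (((c i)⁻¹ : Fˣ) : F) * (g - z i) ∈ A ∧ (((c j)⁻¹ : Fˣ) : F) * (g - z j) ∈ A) ∧
        ¬ ∃ g, ∀ i, (((c i)⁻¹ : Fˣ) : F) * (g - z i) ∈ A := by
  classical
  haveI := Fintype.ofFinite F
  let inter : Finset Fˣ → Set F := fun S => {x | ∀ c ∈ S, ((c⁻¹ : Fˣ) : F) * x ∈ A}
  -- an intersection of multiples of least positive size
  obtain ⟨S₀, hS0, hS1⟩ : ∃ S : Finset Fˣ, S.Nonempty ∧ ∃ w ∈ inter S, w ≠ 0 := by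
    refine ⟨{1}, Finset.singleton_nonempty _, ?_⟩
    obtain ⟨w, hw, hw0⟩ := h0
    exact ⟨w, fun c hc => by rw [Finset.mem_singleton.1 hc]; simpa using hw, hw0⟩
  have hex : ∃ k : ℕ, ∃ S : Finset Fˣ, S.Nonempty ∧ (∃ w ∈ inter S, w ≠ 0) ∧ (inter S).ncard = k :=
    ⟨_, S₀, hS0, hS1, rfl⟩
  obtain ⟨S, hSne, ⟨w, hw, hw0⟩, hScard⟩ := Nat.find_spec hex
  have hmin : ∀ T : Finset Fˣ, T.Nonempty → (∃ v ∈ inter T, v ≠ 0) → (inter S).ncard ≤ (inter T).ncard :=
    fun T hT hT' => hScard.le.trans (Nat.find_min' hex ⟨T, hT, hT', rfl⟩)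
  -- translates meeting non-trivially coincide
  have hshift : ∀ (d : Fˣ) (x : F), x ∈ inter (S.image (d * ·)) ↔ ((d⁻¹ : Fˣ) : F) * x ∈ inter S := by
    intro d x
    simp only [inter, Set.mem_setOf_eq, Finset.forall_mem_image, mul_inv_rev, Units.val_mul, mul_assoc]
  have hcard : ∀ d : Fˣ, (inter (S.image (d * ·))).ncard = (inter S).ncard := by
    intro d
    have : inter (S.image (d * ·)) = (fun x => (d : F) * x) '' inter S := by
      ext x
      rw [hshift]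
      exact ⟨fun h => ⟨_, h, Units.mul_inv_cancel_left d x⟩, fun ⟨y, hy, e⟩ => by
        rw [← e, Units.inv_mul_cancel_left]; exact hy⟩
    rw [this, Set.ncard_image_of_injective _ (mul_right_injective₀ d.ne_zero)]
  have hmeet : ∀ (d : Fˣ) (v : F), v ∈ inter S → v ∈ inter (S.image (d * ·)) → v ≠ 0 →
      inter (S.image (d * ·)) = inter S := by
    intro d v hv hv' hv0
    have hu : inter (S ∪ S.image (d * ·)) = inter S ∩ inter (S.image (d * ·)) := by
      ext x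
      simp only [inter, Set.mem_setOf_eq, Set.mem_inter_iff, Finset.mem_union]
      exact ⟨fun h => ⟨fun c hc => h c (Or.inl hc), fun c hc => h c (Or.inr hc)⟩,
        fun h c hc => hc.elim (h.1 c) (h.2 c)⟩
    have hle := hmin (S ∪ S.image (d * ·)) (hSne.mono Finset.subset_union_left) ⟨v, hu ▸ ⟨hv, hv'⟩, hv0⟩
    rw [hu] at hle
    have e1 := Set.eq_of_subset_of_ncard_le Set.inter_subset_left hle (Set.toFinite _)
    have hsub : inter S ⊆ inter (S.image (d * ·)) := e1 ▸ Set.inter_subset_right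
    exact (Set.eq_of_subset_of_ncard_le hsub (hcard d).le (Set.toFinite _)).symm
  -- three distinct translates
  obtain ⟨v, hv⟩ : ∃ v, v ∉ inter S := by
    obtain ⟨u, hu⟩ := h1
    obtain ⟨c, hc⟩ := hSne
    refine ⟨(c : F) * u, fun h => hu ?_⟩
    have := h c hc
    rwa [Units.inv_mul_cancel_left] at this
  have hzero : (0 : F) ∈ inter S := fun c _ => by rw [mul_zero]; exact A.zero_mem
  have hv0 : v ≠ 0 := fun e => hv (e ▸ hzero)
  have hadd : ∀ (T : Finset Fˣ) (x y : F), x ∈ inter T → y ∈ inter T → x - y ∈ inter T := fun T x y hx hy c hc => by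
    rw [mul_sub]; exact A.sub_mem (hx c hc) (hy c hc)
  have hy0 : w + v ≠ 0 := fun e => hv (by
    have : v = 0 - w := by linear_combination e
    rw [this]; exact hadd S _ _ hzero hw)
  have hyS : w + v ∉ inter S := fun h => hv (by
    have := hadd S _ _ h hw
    rwa [add_sub_cancel_left] at this)
  set d : Fˣ := Units.mk0 v hv0 * (Units.mk0 w hw0)⁻¹ with hd
  set d' : Fˣ := Units.mk0 (w + v) hy0 * (Units.mk0 w hw0)⁻¹ with hd'
  have hvd : v ∈ inter (S.image (d * ·)) := by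
    rw [hshift, hd, mul_inv_rev, inv_inv, Units.val_mul, Units.val_mk0, Units.val_inv_eq_inv_val, Units.val_mk0,
      mul_assoc, inv_mul_cancel₀ hv0, mul_one]
    exact hw
  have hyd : w + v ∈ inter (S.image (d' * ·)) := by
    rw [hshift, hd', mul_inv_rev, inv_inv, Units.val_mul, Units.val_mk0, Units.val_inv_eq_inv_val, Units.val_mk0,
      mul_assoc, inv_mul_cancel₀ hy0, mul_one]
    exact hw
  let ι := Fin 3 × Fin S.card
  let s : Fin S.card → Fˣ := fun i => (S.equivFin.symm i).1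
  have hs : ∀ c ∈ S, ∃ i, s i = c := fun c hc => ⟨S.equivFin ⟨c, hc⟩, by simp [s]⟩
  have hsm : ∀ i, s i ∈ S := fun i => (S.equivFin.symm i).2
  refine ⟨ι, inferInstance, fun p => (![1, d, d'] p.1) * s p.2, fun p => ![0, w + v, 0] p.1, ?_, ?_⟩
  · -- pairs
    have h0' : ∀ i, (((1 * s i)⁻¹ : Fˣ) : F) * (w - 0) ∈ A := fun i => by
      rw [one_mul, sub_zero]; exact hw _ (hsm i)
    have h1' : ∀ i, (((d * s i)⁻¹ : Fˣ) : F) * (w - (w + v)) ∈ A := fun i => by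
      have := hvd (d * s i) (Finset.mem_image_of_mem _ (hsm i))
      rw [show w - (w + v) = 0 - v by ring, mul_sub, mul_zero]
      exact A.sub_mem A.zero_mem this
    have h2' : ∀ i, (((d' * s i)⁻¹ : Fˣ) : F) * ((w + v) - 0) ∈ A := fun i => by
      rw [sub_zero]; exact hyd (d' * s i) (Finset.mem_image_of_mem _ (hsm i))
    have hz : ∀ (c : Fˣ) (a : F), ((c⁻¹ : Fˣ) : F) * (a - a) ∈ A := fun c a => by
      rw [sub_self, mul_zero]; exact A.zero_mem
    rintro ⟨a, i⟩ ⟨b, j⟩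
    fin_cases a <;> fin_cases b
    exacts [⟨0, hz _ _, hz _ _⟩, ⟨w, h0' i, h1' j⟩, ⟨0, hz _ _, hz _ _⟩,
      ⟨w, h1' i, h0' j⟩, ⟨w + v, hz _ _, hz _ _⟩, ⟨w + v, hz _ _, h2' j⟩,
      ⟨0, hz _ _, hz _ _⟩, ⟨w + v, h2' i, hz _ _⟩, ⟨0, hz _ _, hz _ _⟩]
  · rintro ⟨g, hg⟩
    have g0 : g ∈ inter S := fun c hc => by
      obtain ⟨i, rfl⟩ := hs c hc
      simpa using hg (0, i)
    have g2 : g ∈ inter (S.image (d' * ·)) := fun c hc => by
      obtain ⟨c', hc', rfl⟩ := Finset.mem_image.1 hc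
      obtain ⟨i, rfl⟩ := hs c' hc'
      simpa using hg (2, i)
    have hg0 : g = 0 := by
      by_contra hne
      exact hyS ((hmeet d' g g0 g2 hne) ▸ hyd)
    have g1 : w + v ∈ inter (S.image (d * ·)) := fun c hc => by
      obtain ⟨c', hc', rfl⟩ := Finset.mem_image.1 hc
      obtain ⟨i, rfl⟩ := hs c' hc'
      have h := hg (1, i)
      rw [hg0] at h
      have h' := A.neg_mem h
      simpa [mul_add, mul_sub] using h'
    have hwd : w ∈ inter (S.image (d * ·)) := by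
      have := hadd _ _ _ g1 hvd
      rwa [add_sub_cancel_right] at this
    exact hv ((hmeet d w hw hwd hw0) ▸ hvd)

end Cfsg.Agent.H8
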