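import Cfsg.Agent.H8.BinaryAction
import Cfsg.Agent.H8.SzSubEmbed
import Cfsg.Agent.H8.SzCovering

/-!
The binary coset actions of the Suzuki groups.
-/

set_option autoImplicit false

namespace Cfsg.Agent.H8.SzSub

open Cfsg.Agent.H7
open scoped ComplexConjugate

variable {F : Type*} [Field F] {m : ℕ} (H : SzHyp F m)
include H

/-! ### The centre of a Sylow subgroup -/

theorem conj_mem_Q0 {g u : Sz F m} (hg : g ∈ H.B) (hu : u ∈ Q0 H) : g * u * g⁻¹ ∈ Q0 H := by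
  refine involution_mem_Q0 H (mul_mem (mul_mem hg (H.Q_le_B (Q0_le_Q H hu))) (inv_mem hg)) ?_
  calc g * u * g⁻¹ * (g * u * g⁻¹) = g * (u * u) * g⁻¹ := by group
    _ = 1 := by rw [Q0_sq H hu]; group

theorem cj_Q0_of_mem_B {g : Sz F m} (hg : g ∈ H.B) : cj g (Q0 H) = Q0 H := by
  ext x
  rw [mem_cj]
  refine ⟨fun h => ?_, fun h => ?_⟩
  · have := conj_mem_Q0 H hg h
    simpa [mul_assoc] using this
  · have := conj_mem_Q0 H (inv_mem hg) h
    simpa using this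

theorem Q0_TI {a b w : Sz F m} (ha : w ∈ cj a (Q0 H)) (hb : w ∈ cj b (Q0 H)) (hw : w ≠ 1) :
    cj a (Q0 H) = cj b (Q0 H) := by
  rw [mem_cj] at ha hb
  have hB : b⁻¹ * a ∈ H.B := by
    refine H.mem_B_of_conj_mem_Q (Q0_le_Q H ha) (fun e => hw ?_) ?_
    · calc w = a * (a⁻¹ * w * a) * a⁻¹ := by group
        _ = 1 := by rw [e]; group
    · have : b⁻¹ * a * (a⁻¹ * w * a) * (b⁻¹ * a)⁻¹ = b⁻¹ * w * b := by group
      rw [this]
      exact Q0_le_Q H hb
  have := cj_Q0_of_mem_B H hB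
  calc cj a (Q0 H) = cj (b * (b⁻¹ * a)) (Q0 H) := by rw [mul_inv_cancel_left]
    _ = cj b (Q0 H) := by rw [← cj_cj, this]

theorem commute_involution_mem {a s t : Sz F m} (hs : s ∈ cj a (Q0 H)) (hs1 : s ≠ 1) (ht : t * t = 1)
    (hc : s * t = t * s) : t ∈ cj a (Q0 H) := by
  rw [mem_cj] at hs ⊢
  obtain ⟨b, hb⟩ := hs
  have hb0 : b ≠ 0 := fun e => hs1 (by
    calc s = a * (a⁻¹ * s * a) * a⁻¹ := by group
      _ = 1 := by rw [hb, e, H.us_zero]; group)
  have hmem : a⁻¹ * t * a ∈ Subgroup.centralizer ({H.us 0 b} : Set (Sz F m)) := by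
    rw [Subgroup.mem_centralizer_singleton_iff, ← hb]
    calc a⁻¹ * t * a * (a⁻¹ * s * a) = a⁻¹ * (t * s) * a := by group
      _ = a⁻¹ * (s * t) * a := by rw [hc]
      _ = _ := by group
  rw [H.centralizer_us_zero hb0] at hmem
  refine mem_Q0_of_sq H hmem ?_
  calc a⁻¹ * t * a * (a⁻¹ * t * a) = a⁻¹ * (t * t) * a := by group
    _ = 1 := by rw [ht]; group

theorem binaryOn_bot : BinaryOn (⊥ : Subgroup (Sz F m)) := by
  intro ι _ a z hp
  rcases isEmpty_or_nonempty ι with hE | ⟨⟨i₀⟩⟩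
  · exact ⟨1, fun i => isEmptyElim i⟩
  refine ⟨z i₀, fun i => ?_⟩
  obtain ⟨g, h1, h2⟩ := hp i₀ i
  rw [Subgroup.mem_bot] at h1 h2 ⊢
  have e1 : g = z i₀ := by
    calc g = z i₀ * (a i₀ * ((a i₀)⁻¹ * ((z i₀)⁻¹ * g) * a i₀) * (a i₀)⁻¹) := by group
      _ = z i₀ := by rw [h1]; group
  rwa [e1] at h2

theorem binaryOn_Q0 : BinaryOn (Q0 H) := by
  intro ι _ a z hp
  simp only [← mem_cj] at hp ⊢
  rcases isEmpty_or_nonempty ι with hE | ⟨⟨i₀⟩⟩
  · exact ⟨1, fun i => isEmptyElim i⟩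
  choose gg hg0 hg1 using hp i₀
  by_cases hall : ∀ i, cj (a i) (Q0 H) = cj (a i₀) (Q0 H)
  · refine ⟨z i₀, fun i => ?_⟩
    have : (z i)⁻¹ * z i₀ = ((z i)⁻¹ * gg i) * ((z i₀)⁻¹ * gg i)⁻¹ := by group
    rw [this]
    exact mul_mem (hg1 i) (inv_mem (hall i ▸ hg0 i))
  push Not at hall
  obtain ⟨i, hi⟩ := hall
  refine ⟨gg i, fun j => ?_⟩
  have hw : (gg i)⁻¹ * gg j ∈ cj (a i₀) (Q0 H) := by
    have : (gg i)⁻¹ * gg j = ((z i₀)⁻¹ * gg i)⁻¹ * ((z i₀)⁻¹ * gg j) := by group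
    rw [this]
    exact mul_mem (inv_mem (hg0 i)) (hg0 j)
  by_cases hj : cj (a j) (Q0 H) = cj (a i₀) (Q0 H)
  · have : (z j)⁻¹ * gg i = ((z j)⁻¹ * gg j) * ((gg i)⁻¹ * gg j)⁻¹ := by group
    rw [this]
    exact mul_mem (hg1 j) (inv_mem (hj ▸ hw))
  rcases eq_or_ne ((gg i)⁻¹ * gg j) 1 with hw1 | hw1
  · rw [inv_mul_eq_one.1 hw1]
    exact hg1 j
  exfalso
  obtain ⟨h, h1, h2⟩ := hp i j
  set w := (gg i)⁻¹ * gg j with hwd
  have hs : (gg i)⁻¹ * h ∈ cj (a i) (Q0 H) := by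
    have : (gg i)⁻¹ * h = ((z i)⁻¹ * gg i)⁻¹ * ((z i)⁻¹ * h) := by group
    rw [this]
    exact mul_mem (inv_mem (hg1 i)) h1
  have ht : (gg j)⁻¹ * h ∈ cj (a j) (Q0 H) := by
    have : (gg j)⁻¹ * h = ((z j)⁻¹ * gg j)⁻¹ * ((z j)⁻¹ * h) := by group
    rw [this]
    exact mul_mem (inv_mem (hg1 j)) h2
  set s := (gg i)⁻¹ * h with hsd
  set t := (gg j)⁻¹ * h with htd
  have est : s = w * t := by rw [hsd, htd, hwd]; group
  have hsq : ∀ (c : ι) (u : Sz F m), u ∈ cj (a c) (Q0 H) → u * u = 1 := fun c u hu => by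
    have := Q0_sq H (mem_cj.1 hu)
    calc u * u = a c * ((a c)⁻¹ * u * a c * ((a c)⁻¹ * u * a c)) * (a c)⁻¹ := by group
      _ = 1 := by rw [this]; group
  rcases eq_or_ne t 1 with t1 | t1
  · rw [t1, mul_one] at est
    exact hi (Q0_TI H (est ▸ hs) hw hw1)
  have hcomm : w * t = t * w := by
    have h3 := hsq i s hs
    rw [est] at h3
    calc w * t = (w * t)⁻¹ := eq_inv_of_mul_eq_one_left h3
      _ = t * w := by rw [mul_inv_rev, inv_eq_of_mul_eq_one_right (hsq j t ht), inv_eq_of_mul_eq_one_right (hsq i₀ w hw)]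
  exact hj (Q0_TI H ht (commute_involution_mem H hw hw1 (hsq j t ht) hcomm) t1)

omit H in
theorem center_map_subtype {G : Type*} [Group G] (K : Subgroup G) :
    (Subgroup.center K).map K.subtype = K ⊓ Subgroup.centralizer (K : Set G) := by
  ext x
  simp only [Subgroup.mem_map, Subgroup.mem_inf, Subgroup.mem_centralizer_iff, Subgroup.mem_center_iff]
  constructor
  · rintro ⟨u, hu, rfl⟩
    exact ⟨u.2, fun y hy => congrArg Subtype.val (hu ⟨y, hy⟩)⟩
  · rintro ⟨h1, h2⟩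
    exact ⟨⟨x, h1⟩, fun y => Subtype.ext (h2 y.1 y.2), rfl⟩

theorem center_sylow (P : Sylow 2 (Sz F m)) :
    ∃ g, (Subgroup.center (P : Subgroup (Sz F m))).map (P : Subgroup (Sz F m)).subtype = cj g (Q0 H) := by
  obtain ⟨g, hg⟩ := H.exists_conj_sylow P
  refine ⟨g, ?_⟩
  have h0 : (Subgroup.center H.Q).map H.Q.subtype = Q0 H := by
    ext u
    constructor
    · rintro ⟨v, hv, rfl⟩
      exact (H.mem_center_Q v).1 hv
    · intro hu
      exact ⟨⟨u, Q0_le_Q H hu⟩, (H.mem_center_Q _).2 hu, rfl⟩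
  rw [center_map_subtype, ← h0, center_map_subtype, cj_inf, hg]
  congr 1
  ext x
  rw [Subgroup.mem_centralizer_iff, mem_cj, Subgroup.mem_centralizer_iff]
  constructor
  · intro h y hy
    have := h (g * y * g⁻¹) (conj_mem_cj hy)
    calc y * (g⁻¹ * x * g) = g⁻¹ * (g * y * g⁻¹ * x) * g := by group
      _ = g⁻¹ * (x * (g * y * g⁻¹)) * g := by rw [this]
      _ = _ := by group
  · rintro h _ ⟨y, hy, rfl⟩
    have := h y hy
    show g * y * g⁻¹ * x = x * (g * y * g⁻¹)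
    calc g * y * g⁻¹ * x = g * (y * (g⁻¹ * x * g)) * g⁻¹ := by group
      _ = g * (g⁻¹ * x * g * y) * g⁻¹ := by rw [this]
      _ = _ := by group

/-- A proper subgroup containing the centre of a Sylow 2-subgroup fixes the corresponding point. -/
theorem le_B_of_Q0_le {M : Subgroup (Sz F m)} (h0 : Q0 H ≤ M) (hM : M ≠ ⊤) : M ≤ H.B := by
  classical
  haveI := H.finite_Sz
  haveI := H.fin
  have hq : Nat.card (Q0 H) = 2 ^ (2 * m + 1) := by
    rw [← H.card]
    refine (Nat.card_eq_of_bijective (fun b : F => (⟨H.us 0 b, b, rfl⟩ : Q0 H)) ⟨fun b c e => ?_, ?_⟩).symm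
    · exact (H.us_inj.1 (congrArg Subtype.val e)).2
    · rintro ⟨_, b, rfl⟩; exact ⟨b, rfl⟩
  by_cases hA : NoAbNormal M
  · exfalso
    have hne : M ≠ ⊥ := fun e => by
      have := Subgroup.card_le_of_le h0
      rw [hq, e, Subgroup.card_bot] at this
      have := Nat.one_lt_two_pow (n := 2 * m + 1) (by omega)
      omega
    obtain ⟨g, k, K, hk, hdvd, hK, hg⟩ := classify H hA hne
    have H' : SzHyp K k := ⟨inferInstance, hk, hK⟩
    have hr : K.subtype.fieldRange = K := Subfield.ext fun x => ⟨by rintro ⟨y, rfl⟩; exact y.2, fun hx => ⟨⟨x, hx⟩, rfl⟩⟩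
    have e := range_emb H H' K.subtype hdvd
    rw [hr] at e
    have hcard : Nat.card M = Nat.card (Sz K k) := by
      rw [← card_cj g M, hg, ← e]
      exact Nat.card_congr (MonoidHom.ofInjective (emb_injective H H' K.subtype hdvd)).symm.toEquiv
    have hd := Subgroup.card_dvd_of_le h0
    rw [hq, hcard, H'.card_Sz, mul_assoc, ← pow_mul] at hd
    have hco : Nat.Coprime (2 ^ (2 * m + 1)) ((2 ^ ((2 * k + 1) * 2) + 1) * (2 ^ (2 * k + 1) - 1)) := by
      rw [pow_mul]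
      exact Nat.Coprime.pow_left _ (Nat.prime_two.coprime_iff_not_dvd.2 H'.q_even_card)
    have hle := (Nat.pow_dvd_pow_iff_le_right (le_refl 2)).1 (hco.dvd_of_dvd_mul_right hd)
    obtain ⟨d, hd'⟩ := hdvd
    obtain rfl : k = m := by
      have hodd : Odd d := (Nat.odd_mul.1 (hd' ▸ odd_two_mul_add_one m)).2
      obtain ⟨j, rfl⟩ := hodd
      rcases Nat.eq_zero_or_pos j with rfl | hj
      · omega
      · nlinarith
    have hKtop : K = ⊤ := subfield_eq_of_card hK (by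
      rw [← H.card]; exact Nat.card_congr Subfield.topEquiv.toEquiv)
    rw [hKtop, SzK_top] at hg
    apply hM
    have := congrArg (cj g⁻¹) hg
    rw [cj_cj, inv_mul_cancel, cj_one] at this
    rw [this]
    exact eq_top_iff.2 fun x _ => by rw [mem_cj]; exact Subgroup.mem_top _
  simp only [NoAbNormal, not_forall] at hA
  obtain ⟨A, hAM, hAn, hAc, hAne⟩ := hA
  by_cases hinv : ∃ i ∈ A, i ≠ 1 ∧ i * i = 1
  · obtain ⟨i, hiA, hi1, hii⟩ := hinv
    obtain ⟨c, hc⟩ := H.exists_conj_mem_Q (g := i) ⟨1, by rw [pow_one, sq, hii]⟩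
    have hci : i ∈ cj c⁻¹ (Q0 H) := by
      rw [mem_cj, inv_inv]
      refine mem_Q0_of_sq H hc ?_
      calc c * i * c⁻¹ * (c * i * c⁻¹) = c * (i * i) * c⁻¹ := by group
        _ = 1 := by rw [hii]; group
    have hstab : ∀ h ∈ M, c * h * c⁻¹ ∈ H.B := by
      intro h hh
      have hj : h * i * h⁻¹ ∈ A := hAn h hh i hiA
      have hjj : h * i * h⁻¹ * (h * i * h⁻¹) = 1 := by
        calc h * i * h⁻¹ * (h * i * h⁻¹) = h * (i * i) * h⁻¹ := by group
          _ = 1 := by rw [hii]; group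
      have h2 := commute_involution_mem H hci hi1 hjj (hAc i hiA _ hj)
      rw [mem_cj, inv_inv] at h2
      refine H.mem_B_of_conj_mem_Q (u := c * i * c⁻¹) hc (fun e => hi1 (conj_eq_one_iff.1 e)) ?_
      have : c * h * c⁻¹ * (c * i * c⁻¹) * (c * h * c⁻¹)⁻¹ = c * (h * i * h⁻¹) * c⁻¹ := by group
      rw [this]
      exact Q0_le_Q H h2
    have hfix : c⁻¹ • pinf F = pinf F := by
      have hu1 : H.us 0 1 ≠ 1 := fun e => one_ne_zero (H.us_inj.1 (e.trans H.us_zero.symm)).2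
      refine H.eq_inf_of_fixed (H.us_mem_Q 0 1) hu1 (SzHyp.smul_mem c⁻¹ inf_mem) ?_
      have h := MulAction.mem_stabilizer_iff.1 (hstab _ (h0 ⟨1, rfl⟩))
      rw [mul_smul, mul_smul] at h
      exact eq_inv_smul_iff.2 h
    have hcB : c ∈ H.B := (Subgroup.inv_mem_iff _).1 (MulAction.mem_stabilizer_iff.2 hfix)
    intro h hh
    have := mul_mem (mul_mem (inv_mem hcB) (hstab h hh)) hcB
    simpa [mul_assoc] using this
  · exfalso
    obtain ⟨y, hy, hy1⟩ := (Subgroup.bot_or_exists_ne_one A).resolve_left hAne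
    have hyX : y ∈ Xt H ⊤ := ⟨Subgroup.mem_top _, hy1, fun ⟨c, a, b, hc⟩ => hinv (by
      have h4 : y ^ 4 = 1 := by
        have e := H.us_pow_four a b
        rw [← hc] at e
        rw [conj_pow] at e
        exact conj_eq_one_iff.1 e
      by_cases h2 : y * y = 1
      · exact ⟨y, hy, hy1, h2⟩
      · refine ⟨y * y, mul_mem hy hy, h2, ?_⟩
        rw [show y * y * (y * y) = y ^ 4 by simp only [pow_succ, pow_zero, one_mul, mul_assoc], h4])⟩
    obtain ⟨hodd, hcomm, heq, hnq⟩ := part_facts H hyX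
    have hN : ∀ i ∈ M, i ∈ NC y := by
      intro i hi
      rw [NC, Subgroup.mem_normalizer_iff_map_conj_eq]
      show cj i (Subgroup.centralizer {y}) = _
      rw [cj, map_conj_centralizer]
      exact heq _ (Subgroup.mem_centralizer_singleton_iff.2 (hAc _ (hAn i hi y hy) _ hy))
        (fun e => hy1 (conj_eq_one_iff.1 e))
    obtain ⟨β, hβ0, hβ1⟩ : ∃ β : F, β ≠ 0 ∧ β ≠ 1 := by
      obtain ⟨k, hk⟩ := H.exists_unit_ne_one
      exact ⟨k, k.ne_zero, fun e => hk (Units.ext e)⟩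
    have inv1 : ∀ b : F, b ≠ 0 → H.us 0 b * y * H.us 0 b = y⁻¹ := fun b hb =>
      (inverts H hyX (fun e => hb (H.us_inj.1 (e.trans H.us_zero.symm)).2) (Q0_sq H ⟨b, rfl⟩) (hN _ (h0 ⟨b, rfl⟩))
        (mem_centralizer_self y)).1
    have hmem : H.us 0 (1 + β) ∈ Subgroup.centralizer ({y} : Set (Sz F m)) := by
      rw [Subgroup.mem_centralizer_singleton_iff]
      have hne : (1 : F) + β ≠ 0 := fun e => hβ1 ((H.add_eq_zero_iff 1 β).1 e).symm
      have hm' : H.us 0 (1 + β) = H.us 0 1 * H.us 0 β := by rw [H.us_mul]; simp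
      have h1 := inv1 1 one_ne_zero
      have h2 := inv1 β hβ0
      have s1 := Q0_sq H (⟨1, rfl⟩ : H.us 0 (1 : F) ∈ Q0 H)
      have s2 := Q0_sq H (⟨β, rfl⟩ : H.us 0 β ∈ Q0 H)
      have key : H.us 0 1 * H.us 0 β * y * H.us 0 β * H.us 0 1 = y := by
        calc _ = H.us 0 1 * (H.us 0 β * y * H.us 0 β) * H.us 0 1 := by group
          _ = (H.us 0 1 * y * H.us 0 1)⁻¹ := by
            rw [h2, mul_inv_rev, mul_inv_rev, inv_eq_of_mul_eq_one_right s1]; group
          _ = y := by rw [h1, inv_inv]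
      rw [hm']
      calc H.us 0 1 * H.us 0 β * y
          = H.us 0 1 * H.us 0 β * y * (H.us 0 β * (H.us 0 1 * H.us 0 1) * H.us 0 β) := by
            rw [s1, mul_one, s2, mul_one]
        _ = H.us 0 1 * H.us 0 β * y * H.us 0 β * H.us 0 1 * (H.us 0 1 * H.us 0 β) := by group
        _ = y * (H.us 0 1 * H.us 0 β) := by rw [key]
    refine hnq _ hmem (fun e => ?_) ⟨1, by simpa using H.us_mem_Q 0 (1 + β)⟩
    exact hβ1 ((H.add_eq_zero_iff 1 β).1 (H.us_inj.1 (e.trans H.us_zero.symm)).2).symm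

/-! ### Subgroups meeting the centre of a Sylow subgroup properly -/

theorem not_binary_partial {M : Subgroup (Sz F m)} (hM : M ≠ ⊤) (h0 : ∃ b : F, b ≠ 0 ∧ H.us 0 b ∈ M)
    (h1 : ¬ Q0 H ≤ M) : ¬ BinaryOn M := by
  classical
  haveI := H.finite_Sz
  haveI := H.fin
  haveI := H.isSimple
  intro hb
  let A : AddSubgroup F :=
    { carrier := {b | H.us 0 b ∈ M}
      zero_mem' := by show H.us 0 0 ∈ M; rw [H.us_zero]; exact one_mem _
      add_mem' := fun {a b} ha hb => by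
        show H.us 0 (a + b) ∈ M
        have := mul_mem (show H.us 0 a ∈ M from ha) (show H.us 0 b ∈ M from hb)
        rwa [H.us_mul, add_zero, th_zero, zero_mul, add_zero] at this
      neg_mem' := fun {a} ha => by show H.us 0 (-a) ∈ M; rw [H.neg_eq]; exact ha }
  have hA1 : ∃ w, w ∉ A := by
    by_contra h
    push Not at h
    exact h1 (by rintro _ ⟨b, rfl⟩; exact h b)
  obtain ⟨b₀, hb0, hb0M⟩ := h0
  obtain ⟨ι, _, c, z, hpair, hno⟩ := exists_bad_family A ⟨b₀, hb0M, hb0⟩ hA1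
  choose k hk using fun i => H.normBij_surjective (c i)
  have hscale : ∀ i, (((k i)⁻¹ : Fˣ) : F) * th m (((k i)⁻¹ : Fˣ) : F) = (((c i)⁻¹ : Fˣ) : F) := by
    intro i
    have e : (((k i)⁻¹ : Fˣ) : F) * th m (((k i)⁻¹ : Fˣ) : F) * ((c i : Fˣ) : F) = 1 := by
      rw [← hk i, mul_mul_mul_comm, ← th_mul, Units.inv_mul, th_one, mul_one]
    rw [Units.val_inv_eq_inv_val (c i)]
    exact eq_inv_of_mul_eq_one_left e
  have hconj : ∀ (i : ι) (e : F) (p : Sz F m), p ∈ H.Q →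
      (p * H.ds (k i))⁻¹ * H.us 0 e * (p * H.ds (k i)) = H.us 0 ((((c i)⁻¹ : Fˣ) : F) * e) := by
    intro i e p hp
    have hc := Q0_central H (⟨e, rfl⟩ : H.us 0 e ∈ Q0 H) hp
    calc (p * H.ds (k i))⁻¹ * H.us 0 e * (p * H.ds (k i))
        = (H.ds (k i))⁻¹ * (p⁻¹ * (H.us 0 e * p)) * H.ds (k i) := by group
      _ = H.ds (k i)⁻¹ * H.us 0 e * (H.ds (k i)⁻¹)⁻¹ := by
          rw [hc, inv_mul_cancel_left, H.ds_inv, H.ds_inv, inv_inv]
      _ = _ := by rw [H.ds_us_conj, mul_zero, hscale]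
  have hzmul : ∀ a b : F, (H.us 0 a)⁻¹ * H.us 0 b = H.us 0 (b - a) := fun a b => by
    rw [H.us_inv, H.us_mul]
    congr 1
    · exact add_zero 0
    · simp [sub_eq_add_neg, H.neg_eq, add_comm]
  let n := Nat.card H.Q
  let p : Fin n → Sz F m := fun j => ((Finite.equivFin H.Q).symm j).1
  obtain ⟨g, hg⟩ := hb (ι × Fin n) (fun x => p x.2 * H.ds (k x.1)) (fun x => H.us 0 (z x.1)) fun x y => by
    obtain ⟨g', h1, h2⟩ := hpair x.1 y.1
    refine ⟨H.us 0 g', ?_, ?_⟩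
    · rw [hzmul, hconj _ _ _ ((Finite.equivFin H.Q).symm x.2).2]; exact h1
    · rw [hzmul, hconj _ _ _ ((Finite.equivFin H.Q).symm y.2).2]; exact h2
  have hgp : ∀ i, ∀ q ∈ H.Q, (q * H.ds (k i))⁻¹ * ((H.us 0 (z i))⁻¹ * g) * (q * H.ds (k i)) ∈ M := by
    intro i q hq
    have := hg (i, Finite.equivFin H.Q ⟨q, hq⟩)
    simpa only [p, Equiv.symm_apply_apply] using this
  -- the largest subgroup of a conjugate normalised by Q
  let K : ι → Subgroup (Sz F m) := fun i =>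
    ⨅ q : H.Q, cj (q.1 * H.ds (k i)) M
  have hK : ∀ i x, x ∈ K i ↔ ∀ q ∈ H.Q, (q * H.ds (k i))⁻¹ * x * (q * H.ds (k i)) ∈ M := fun i x => by
    simp only [K, Subgroup.mem_iInf, mem_cj]
    exact ⟨fun h q hq => h ⟨q, hq⟩, fun h q => h q.1 q.2⟩
  have hKQ : ∀ i, ∀ r ∈ H.Q, ∀ x ∈ K i, r * x * r⁻¹ ∈ K i := by
    intro i r hr x hx
    rw [hK] at hx ⊢
    intro q hq
    have := hx (r⁻¹ * q) (mul_mem (inv_mem hr) hq)
    convert this using 1
    group
  have hKB : ∀ i, K i ≤ H.B := by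
    intro i
    by_contra hle
    have hN : Subgroup.normalizer (K i : Set (Sz F m)) = ⊤ := by
      refine H.eq_top_of_Q_le (fun r hr => ?_) (fun h => hle ((Subgroup.le_normalizer).trans h))
      refine Subgroup.mem_normalizer_iff.2 fun x => ⟨hKQ i r hr x, fun h => ?_⟩
      have := hKQ i r⁻¹ (inv_mem hr) _ h
      simpa [mul_assoc] using this
    haveI : (K i).Normal := Subgroup.normalizer_eq_top_iff.1 hN
    rcases IsSimpleGroup.eq_bot_or_eq_top_of_normal (K i) inferInstance with e | e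
    · exact hle (e ▸ bot_le)
    · refine hM (eq_top_iff.2 fun x _ => ?_)
      have hm : H.ds (k i) * x * (H.ds (k i))⁻¹ ∈ K i := e ▸ Subgroup.mem_top _
      rw [hK] at hm
      have := hm 1 (one_mem _)
      simpa [mul_assoc] using this
  have hKQ' : ∀ i, K i ≤ H.Q := by
    intro i e he
    obtain ⟨u, hu, l, rfl⟩ := exists_Q_ds H (hKB i he)
    rcases eq_or_ne l 1 with rfl | hl
    · rwa [H.ds_one, mul_one]
    exfalso
    have hl1 : (l : F) * th m (l : F) + 1 ≠ 0 := fun e => hl (Units.ext (H.ker_norm ((H.add_eq_zero_iff _ _).1 e)))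
    have hQ0 : ∀ b, H.us 0 b ∈ K i := by
      intro b
      set d := b / ((l : F) * th m (l : F) + 1)
      have hm := mul_mem (hKQ i _ (H.us_mem_Q 0 d) _ he) (inv_mem he)
      have hc := Q0_central H (⟨(l : F) * th m (l : F) * d, rfl⟩ : H.us 0 ((l : F) * th m (l : F) * d) ∈ Q0 H) hu
      have e1 : H.us 0 d * (u * H.ds l) * (H.us 0 d)⁻¹ * (u * H.ds l)⁻¹ = H.us 0 b := by
        rw [H.us_inv, th_zero, mul_zero, add_zero]
        calc H.us 0 d * (u * H.ds l) * H.us 0 d * (u * H.ds l)⁻¹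
            = H.us 0 d * (u * (H.ds l * H.us 0 d * (H.ds l)⁻¹) * u⁻¹) := by group
          _ = H.us 0 d * H.us 0 ((l : F) * th m (l : F) * d) := by
              rw [H.ds_us_conj, mul_zero, ← hc, mul_inv_cancel_right]
          _ = H.us 0 b := by
              rw [H.us_mul, th_zero, zero_mul, add_zero, add_zero]
              congr 1
              simp only [d]
              field_simp
              ring
      rwa [e1] at hm
    apply h1
    rintro _ ⟨b, rfl⟩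
    have := (hK i _).1 (hQ0 ((c i : Fˣ) * b)) 1 (one_mem _)
    rw [hconj i _ 1 (one_mem _), Units.inv_mul_cancel_left] at this
    exact this
  have he : ∀ i, (H.us 0 (z i))⁻¹ * g ∈ K i := fun i => (hK i _).2 (hgp i)
  have hι : Nonempty ι := not_isEmpty_iff.1 fun hE => hno ⟨0, fun i => isEmptyElim i⟩
  obtain ⟨i₀⟩ := hι
  obtain ⟨α, β, hab⟩ : ∃ α β, g = H.us α β := by
    have h := mul_mem (H.us_mem_Q 0 (z i₀)) (hKQ' i₀ (he i₀))
    rwa [mul_inv_cancel_left] at h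
  rcases eq_or_ne α 0 with rfl | hα
  · refine hno ⟨β, fun i => ?_⟩
    have := hgp i 1 (one_mem _)
    rw [hab, hzmul, hconj i _ 1 (one_mem _)] at this
    exact this
  -- all the subgroups involved coincide
  let φ : F →+ F := AddMonoidHom.mk' (fun d => th m d * α + th m α * d) fun a b => by rw [H.th_add]; ring
  have hker : Nat.card φ.ker ≤ 2 := by
    have hsub : (φ.ker : Set F) ⊆ {0, α} := by
      intro d hd
      have hd' : th m d * α + th m α * d = 0 := hd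
      rcases eq_or_ne d 0 with rfl | hd0
      · exact Set.mem_insert _ _
      refine Set.mem_insert_of_mem _ (Set.mem_singleton_iff.2 ?_)
      have e2 : th m d * α = th m α * d := (H.add_eq_zero_iff _ _).1 hd'
      have e3 : th m (d / α) = d / α := by
        have hth : th m (d / α) = th m d / th m α := div_pow d α _
        have hα' : th m α ≠ 0 := pow_ne_zero _ hα
        rw [hth, div_eq_div_iff hα' hα]
        linear_combination e2
      have e4 : d / α = 1 := by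
        have h5 : th m (d / α) = (d / α) ^ 2 := by
          have := H.th_th (d / α)
          rwa [e3] at this
        rw [e3, sq] at h5
        exact mul_left_cancel₀ (div_ne_zero hd0 hα) (by rw [mul_one]; exact h5.symm)
      rwa [div_eq_one_iff_eq hα] at e4
    rw [← SetLike.coe_sort_coe, Nat.card_coe_set_eq]
    exact (Set.ncard_le_ncard hsub (Set.toFinite _)).trans (Set.ncard_pair (Ne.symm hα)).le
  let A' : ι → AddSubgroup F := fun i => A.comap (AddMonoidHom.mulLeft (((c i)⁻¹ : Fˣ) : F))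
  have hφA : ∀ i, φ.range ≤ A' i := by
    rintro i _ ⟨d, rfl⟩
    show (((c i)⁻¹ : Fˣ) : F) * (th m d * α + th m α * d) ∈ A
    have h := he i
    rw [hab, H.us_inv, th_zero, mul_zero, add_zero, H.us_mul, zero_add, th_zero, zero_mul, add_zero] at h
    have hm := mul_mem (hKQ i _ (H.us_mem_Q d 0) _ h) (inv_mem h)
    rw [H.us_conj, H.us_inv, H.us_mul] at hm
    have := (hK i _).1 hm 1 (one_mem _)
    have e : α + α = 0 := H.add_self α
    rw [e] at this
    rw [hconj i _ 1 (one_mem _)] at this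
    show H.us 0 _ ∈ M
    convert this using 3
    linear_combination -(z i + β) * H.two_eq - th m α * α * H.two_eq
  have hA'lt : ∀ i, A' i ≠ ⊤ := fun i h => by
    obtain ⟨w, hw⟩ := hA1
    have : (c i : F) * w ∈ A' i := h ▸ AddSubgroup.mem_top _
    rw [AddSubgroup.mem_comap, AddMonoidHom.coe_mulLeft, Units.inv_mul_cancel_left] at this
    exact hw this
  have heq : ∀ i, A' i = φ.range := by
    intro i
    refine (AddSubgroup.eq_of_le_of_card_ge (hφA i) ?_).symm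
    have h2 : Nat.card (A' i) * 2 ≤ Nat.card F := by
      rw [← (A' i).card_mul_index]
      refine Nat.mul_le_mul_left _ ?_
      have := AddSubgroup.index_eq_one.not.2 (hA'lt i)
      have := (A' i).index_ne_zero_of_finite
      omega
    have h3 : Nat.card F = Nat.card φ.range * Nat.card φ.ker := by
      rw [← φ.ker.index_mul_card, AddSubgroup.index_ker]
    nlinarith
  refine hno ⟨z i₀, fun j => ?_⟩
  obtain ⟨g', h1', h2'⟩ := hpair i₀ j
  have hmem : g' - z i₀ ∈ A' j := (heq j).symm ▸ (heq i₀) ▸ (h1' : g' - z i₀ ∈ A' i₀)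
  have := A.sub_mem h2' hmem
  rwa [AddMonoidHom.coe_mulLeft, ← mul_sub, sub_sub_sub_cancel_left] at this

/-! ### Subgroups of a point stabiliser containing the centre of a Sylow subgroup -/

/-- `g` acts on the quotient by the centre as `x ↦ k x + a`. -/
def Aff (g : Sz F m) (a : F) (k : Fˣ) : Prop := ∃ b, g = H.us a b * H.ds k

theorem aff_mul {g h : Sz F m} {a c : F} {k l : Fˣ} (hg : Aff H g a k) (hh : Aff H h c l) :
    Aff H (g * h) (a + (k : F) * c) (k * l) := by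
  obtain ⟨b, rfl⟩ := hg
  obtain ⟨d, rfl⟩ := hh
  refine ⟨b + (k : F) * th m (k : F) * d + th m a * ((k : F) * c), ?_⟩
  calc H.us a b * H.ds k * (H.us c d * H.ds l) = H.us a b * (H.ds k * H.us c d * (H.ds k)⁻¹) * (H.ds k * H.ds l) := by
        group
    _ = _ := by rw [H.ds_us_conj, H.us_mul, ← H.ds_mul]

theorem aff_us (a : F) : Aff H (H.us a 0) a 1 := ⟨0, by rw [H.ds_one, mul_one]⟩

theorem aff_us_inv (a : F) : Aff H (H.us a 0)⁻¹ a 1 := ⟨0 + a * th m a, by rw [H.us_inv, H.ds_one, mul_one]⟩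

theorem aff_ds (k : Fˣ) : Aff H (H.ds k) 0 k := ⟨0, by rw [H.us_zero, one_mul]⟩

theorem aff_exists {g : Sz F m} (hg : g ∈ H.B) : ∃ a k, Aff H g a k := by
  obtain ⟨a, b, k, rfl⟩ := H.fix_inf hg
  exact ⟨a, k, b, rfl⟩

theorem aff_conj {g : Sz F m} {a v : F} {k : Fˣ} (hg : Aff H g a k) :
    Aff H ((H.us v 0)⁻¹ * g * H.us v 0) (v + a + (k : F) * v) k := by
  have := aff_mul H (aff_mul H (aff_us_inv H v) hg) (aff_us H v)
  simpa using this

theorem aff_mem_iff {M : Subgroup (Sz F m)} (h0 : Q0 H ≤ M) {g : Sz F m} {a : F} {k : Fˣ} (hg : Aff H g a k)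
    (hk : H.ds k ∈ M) : g ∈ M ↔ H.us a 0 ∈ M := by
  obtain ⟨b, rfl⟩ := hg
  rw [Subgroup.mul_mem_cancel_right _ hk]
  have e : H.us a b = H.us a 0 * H.us 0 b := by rw [H.us_mul]; simp
  rw [e, Subgroup.mul_mem_cancel_right _ (h0 ⟨b, rfl⟩)]

theorem aff_congr {g : Sz F m} {a a' : F} {k k' : Fˣ} (hg : Aff H g a k) (ha : a = a') (hk : k = k') :
    Aff H g a' k' := ha ▸ hk ▸ hg

theorem aff_ds_inv (k : Fˣ) : Aff H (H.ds k)⁻¹ 0 k⁻¹ := by
  rw [H.ds_inv]
  exact aff_ds H k⁻¹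

omit H in
theorem frob_alg (two : (2 : F) = 0) {l : F} (hl : l ≠ 0) (v : F) :
    (l + 1) / l * v + (0 + l⁻¹ * (v + 1 * 0 + 1 * (l * l) * v)) + l⁻¹ * (1 * (l * l) * 1) * ((l + 1) / l * v) = 0 := by
  field_simp
  linear_combination ((l ^ 2 + l + 1) * v) * two

/-- The algebra behind the refutation of binarity for a Frobenius group. -/
theorem frobenius_aux {M : Subgroup (Sz F m)} (h0 : Q0 H ≤ M) (hB : M ≤ H.B)
    (hgen : ∀ g ∈ M, ∀ a k, Aff H g a k → H.ds k ∈ M) {l : Fˣ} (hlM : H.ds l ∈ M) (hl : l ≠ 1)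
    (hdiv : ∀ k : Fˣ, H.ds k ∈ M → k ≠ 1 → ∀ w, H.us ((1 + (k : F)) * w) 0 ∈ M → H.us w 0 ∈ M)
    (hR : ∀ k : Fˣ, H.ds k ∈ M → ∀ a, H.us a 0 ∈ M → H.us ((k : F) * a) 0 ∈ M)
    (hsub : ∀ x y, H.us x 0 ∈ M → H.us y 0 ∈ M → H.us (x - y) 0 ∈ M) {g : Sz F m} {v : F} (g0 : g ∈ M)
    (g1 : (H.us v 0)⁻¹ * g * H.us v 0 ∈ M)
    (g2 : (H.us (((l : F) + 1) / l * v) 0)⁻¹ * ((H.ds l)⁻¹ * g) * H.us (((l : F) + 1) / l * v) 0 ∈ M) :
    H.us v 0 ∈ M := by
  obtain ⟨a, k, hk⟩ := aff_exists H (hB g0)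
  have hkM := hgen g g0 a k hk
  have ha := (aff_mem_iff H h0 hk hkM).1 g0
  have h1 := hsub _ _ ((aff_mem_iff H h0 (aff_conj H hk) hkM).1 g1) ha
  rw [show v + a + (k : F) * v - a = (1 + (k : F)) * v by ring] at h1
  by_cases hk1 : k = 1
  · subst hk1
    have hlk : H.ds (l⁻¹ * 1) ∈ M := by
      rw [mul_one, ← H.ds_inv]
      exact inv_mem hlM
    have h2 := (aff_mem_iff H h0 (aff_conj H (aff_mul H (aff_ds_inv H l) hk)) hlk).1 g2
    have h3 := hsub _ _ (hR l hlM _ (hR l hlM _ h2)) (hR l hlM _ ha)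
    have hl0 := Units.ne_zero l
    have e : (l : F) * ((l : F) * (((l : F) + 1) / l * v + (0 + ((l⁻¹ : Fˣ) : F) * a) +
        ((l⁻¹ * 1 : Fˣ) : F) * (((l : F) + 1) / l * v))) - (l : F) * a = (1 + (l : F)) * ((1 + (l : F)) * v) := by
      simp only [Units.val_mul, Units.val_one, Units.val_inv_eq_inv_val]
      field_simp
      ring
    rw [e] at h3
    exact hdiv l hlM hl v (hdiv l hlM hl _ h3)
  · exact hdiv k hkM hk1 v h1

theorem not_binary_frobenius {M : Subgroup (Sz F m)} (h0 : Q0 H ≤ M) (hB : M ≤ H.B) (hQ : ¬ H.Q ≤ M) {l : Fˣ}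
    (hl : l ≠ 1) (hlM : H.ds l ∈ M) (hgen : ∀ g ∈ M, ∀ a k, Aff H g a k → H.ds k ∈ M) : ¬ BinaryOn M := by
  classical
  haveI := H.fin
  let R : AddSubgroup F :=
    { carrier := {a | H.us a 0 ∈ M}
      zero_mem' := by show H.us 0 0 ∈ M; rw [H.us_zero]; exact one_mem _
      add_mem' := fun {a b} ha hb => by
        show H.us (a + b) 0 ∈ M
        have := mul_mem (show H.us a 0 ∈ M from ha) (show H.us b 0 ∈ M from hb)
        refine (aff_mem_iff H h0 (a := a + b) (k := 1) ?_ (by rw [H.ds_one]; exact one_mem _)).1 this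
        simpa using aff_mul H (aff_us H a) (aff_us H b)
      neg_mem' := fun {a} ha => by show H.us (-a) 0 ∈ M; rw [H.neg_eq]; exact ha }
  have hR : ∀ k : Fˣ, H.ds k ∈ M → ∀ a ∈ R, (k : F) * a ∈ R := by
    intro k hk a ha
    show H.us ((k : F) * a) 0 ∈ M
    have := mul_mem (mul_mem hk (show H.us a 0 ∈ M from ha)) (inv_mem hk)
    rwa [H.ds_us_conj, mul_zero] at this
  have hdiv : ∀ k : Fˣ, H.ds k ∈ M → k ≠ 1 → ∀ w, (1 + (k : F)) * w ∈ R → w ∈ R := by
    intro k hk hk1 w hw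
    have hne : (1 : F) + k ≠ 0 := fun e => hk1 (Units.ext ((H.add_eq_zero_iff 1 _).1 e).symm)
    let f : R → R := fun a => ⟨(1 + (k : F)) * a.1, by rw [add_mul, one_mul]; exact R.add_mem a.2 (hR k hk _ a.2)⟩
    have hf : Function.Injective f := fun a b e => Subtype.ext (mul_left_cancel₀ hne (congrArg Subtype.val e))
    obtain ⟨a, ha⟩ := Finite.injective_iff_surjective.1 hf ⟨_, hw⟩
    have : a.1 = w := mul_left_cancel₀ hne (congrArg Subtype.val ha)
    exact this ▸ a.2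
  obtain ⟨v, hv⟩ : ∃ v, v ∉ R := by
    by_contra h
    push Not at h
    refine hQ ?_
    rintro _ ⟨a, b, rfl⟩
    exact (aff_mem_iff H h0 (g := H.us a b) (k := 1) ⟨b, by rw [H.ds_one, mul_one]⟩
      (by rw [H.ds_one]; exact one_mem _)).2 (h a)
  set b : F := ((l : F) + 1) / l with hb
  have hwit : Aff H ((H.us (b * v) 0)⁻¹ * ((H.ds l)⁻¹ * (H.us v 0 * H.ds (l * l) * (H.us v 0)⁻¹)) * H.us (b * v) 0)
      0 l := aff_congr H (aff_conj H (aff_mul H (aff_ds_inv H l)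
        (aff_mul H (aff_mul H (aff_us H v) (aff_ds H (l * l))) (aff_us_inv H v))))
      (by
        rw [hb]
        simp only [Units.val_mul, Units.val_one, Units.val_inv_eq_inv_val]
        exact frob_alg H.two_eq (Units.ne_zero l) v)
      (by rw [one_mul, mul_one, inv_mul_cancel_left])
  refine not_binaryOn_triple (a₀ := (1 : Sz F m)) (a₁ := H.us v 0) (a₂ := H.us (b * v) 0) (z₀ := 1) (z₁ := 1)
    (z₂ := H.ds l) (g₂ := 1) (g₁ := H.ds l) (g₀ := H.us v 0 * H.ds (l * l) * (H.us v 0)⁻¹) ?_ ?_ ?_ ?_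
  · simp
  · simp [hlM]
  · refine ⟨?_, (aff_mem_iff H h0 hwit hlM).2 (by rw [H.us_zero]; exact one_mem _)⟩
    rw [show (H.us v 0)⁻¹ * ((1 : Sz F m)⁻¹ * (H.us v 0 * H.ds (l * l) * (H.us v 0)⁻¹)) * H.us v 0 = H.ds (l * l) by
      group, H.ds_mul]
    exact mul_mem hlM hlM
  · intro g g0 g1 g2
    simp only [inv_one, one_mul, mul_one] at g0 g1
    exact hv (frobenius_aux H h0 hB hgen hlM hl (fun k hk hk1 w => hdiv k hk hk1 w)
      (fun k hk a => hR k hk a) (fun x y => R.sub_mem) g0 g1 g2)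

theorem not_binary_Q_le {M : Subgroup (Sz F m)} (hQ : H.Q ≤ M) (hB : M ≤ H.B) : ¬ BinaryOn M := by
  classical
  haveI := H.finite_Sz
  haveI := H.fin
  haveI : Fintype (Sz F m) := Fintype.ofFinite _
  intro hb
  set C := (⊤ : Subgroup (Sz F m))
  have hdec : ∀ g : Sz F m, g ∉ H.B → ∃ q ∈ H.Q, ∃ b ∈ H.B, g = q * H.ws * b := by
    intro g hg
    rcases H.decomp g with ⟨a, b, k, rfl⟩ | ⟨a, b, k, c, d, rfl⟩
    · exact absurd (mul_mem (H.us_mem_B a b) (H.ds_mem_B k)) hg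
    · exact ⟨_, H.us_mem_Q a b, _, mul_mem (H.us_mem_B c d) (H.ds_mem_B k), rfl⟩
  have hnot : ∀ u : {u : H.Q // u ≠ 1}, H.ws * u.1.1 * H.ws ∉ H.B := by
    intro u hu
    have h1 := MulAction.mem_stabilizer_iff.1 hu
    rw [mul_smul, mul_smul, H.ws_inf] at h1
    have hne : (u.1.1 : Sz F m) ≠ 1 := fun e => u.2 (Subtype.ext e)
    have h2 : u.1.1 • pzero F = pzero F := by
      have h := congrArg (fun p => H.ws • p) h1
      rwa [← mul_smul H.ws H.ws, H.ws_mul_self, one_smul, H.ws_inf] at h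
    exact inf_ne_zero (H.eq_inf_of_fixed u.1.2 hne zero_mem h2).symm
  choose q hq bb hbb hqb using fun u => hdec _ (hnot u)
  let lab : {u : H.Q // u ≠ 1} → H.B ⧸ M.subgroupOf H.B := fun u => QuotientGroup.mk ⟨bb u, hbb u⟩
  set D := M ⊓ cj H.ws M with hD
  have hDT : ∀ g ∈ D, g ∈ M ∧ g ∈ H.T := by
    intro g hg
    obtain ⟨g1, g2⟩ := Subgroup.mem_inf.1 hg
    refine ⟨g1, ?_⟩
    rw [mem_cj] at g2
    have hz : g • pzero F = pzero F := by
      have h := MulAction.mem_stabilizer_iff.1 (hB g2)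
      rw [mul_smul, mul_smul, H.ws_inf, inv_smul_eq_iff, H.ws_inf] at h
      exact h
    obtain ⟨k, rfl⟩ := H.fix_both (MulAction.mem_stabilizer_iff.1 (hB g1)) hz
    exact ⟨k, rfl⟩
  have hcardD : Nat.card D * (2 ^ (2 * m + 1)) ^ 2 ≤ Nat.card M := by
    rw [← H.card_Q, mul_comm, ← Nat.card_prod]
    refine Nat.card_le_card_of_injective (fun p : H.Q × D => (⟨p.1.1 * p.2.1, mul_mem (hQ p.1.2) p.2.2.1⟩ : M)) ?_
    rintro ⟨u, d⟩ ⟨u', d'⟩ e
    obtain ⟨k, hk⟩ := (hDT d.1 d.2).2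
    obtain ⟨k', hk'⟩ := (hDT d'.1 d'.2).2
    have e' : u.1 * H.ds k = u'.1 * H.ds k' := by
      have := congrArg Subtype.val e
      rw [← show (H.dsHom k : Sz F m) = H.ds k from rfl, ← show (H.dsHom k' : Sz F m) = H.ds k' from rfl, hk, hk']
      exact this
    obtain ⟨e1, e2⟩ := Q_ds_inj H u.2 u'.2 e'
    exact Prod.ext (Subtype.ext e1) (Subtype.ext (by rw [← hk, ← hk', e2]))
  -- some label is taken more often than the two-point stabiliser allows
  obtain ⟨u, u', hlab, hbad⟩ : ∃ u u', lab u = lab u' ∧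
      ∀ d ∈ D, (u'.1.1 * H.ws)⁻¹ * (d * (u.1.1 * H.ws)) ∉ M := by
    by_contra hne
    push Not at hne
    have hfib : ∀ u, (Finset.univ.filter fun u' => lab u = lab u').card ≤ Nat.card D := by
      intro u
      choose d hd hdM using fun u' : {u' // lab u = lab u'} => hne u u'.1 u'.2
      rw [← Fintype.card_subtype, ← Nat.card_eq_fintype_card]
      refine Nat.card_le_card_of_injective (fun u' => (⟨d u', hd u'⟩ : D)) fun a b e => ?_
      have hm := mul_mem (hdM a) (inv_mem (hdM b))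
      rw [show d b = d a from (congrArg Subtype.val e).symm] at hm
      have e1 : (a.1.1.1 * H.ws)⁻¹ * (d a * (u.1.1 * H.ws)) * ((b.1.1.1 * H.ws)⁻¹ * (d a * (u.1.1 * H.ws)))⁻¹ =
          H.ws⁻¹ * (a.1.1.1⁻¹ * b.1.1.1) * H.ws := by group
      rw [e1] at hm
      have hQm : a.1.1.1⁻¹ * b.1.1.1 ∈ H.Q := mul_mem (inv_mem a.1.1.2) b.1.1.2
      have h1 : a.1.1.1⁻¹ * b.1.1.1 = 1 := by
        by_contra h1
        refine inf_ne_zero (H.eq_inf_of_fixed hQm h1 zero_mem ?_).symm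
        have h := MulAction.mem_stabilizer_iff.1 (hB hm)
        rw [mul_smul, mul_smul, H.ws_inf, inv_smul_eq_iff, H.ws_inf] at h
        exact h
      exact Subtype.ext (Subtype.ext (Subtype.ext (inv_mul_eq_one.1 h1)))
    have hcount := Finset.card_le_mul_card_image (f := lab) (Finset.univ : Finset {u : H.Q // u ≠ 1}) (Nat.card D)
      (fun a ha => by
        obtain ⟨u, -, rfl⟩ := Finset.mem_image.1 ha
        simpa only [eq_comm] using hfib u)
    have himg : (Finset.univ.image lab).card ≤ Nat.card (H.B ⧸ M.subgroupOf H.B) := by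
      rw [Nat.card_eq_fintype_card]; exact Finset.card_le_univ _
    have hidx : Nat.card (H.B ⧸ M.subgroupOf H.B) * Nat.card M = Nat.card H.B := by
      rw [← Subgroup.index_eq_card, ← Nat.card_congr (Subgroup.subgroupOfEquivOfLe hB).toEquiv, mul_comm,
        Subgroup.card_mul_index]
    have hU : Fintype.card {u : H.Q // u ≠ 1} = (2 ^ (2 * m + 1)) ^ 2 - 1 := by
      rw [Fintype.card_subtype_compl, Fintype.card_subtype_eq, ← Nat.card_eq_fintype_card, H.card_Q]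
    rw [Finset.card_univ, hU] at hcount
    rw [H.card_B] at hidx
    have h8 := H.eight_le_card
    rw [H.card] at h8
    have hc1 : (2 ^ (2 * m + 1)) ^ 2 - 1 ≤ Nat.card D * Nat.card (H.B ⧸ M.subgroupOf H.B) :=
      hcount.trans (Nat.mul_le_mul_left _ himg)
    have hc2 : Nat.card (H.B ⧸ M.subgroupOf H.B) * (Nat.card D * (2 ^ (2 * m + 1)) ^ 2) ≤
        (2 ^ (2 * m + 1)) ^ 2 * (2 ^ (2 * m + 1) - 1) := (Nat.mul_le_mul_left _ hcardD).trans hidx.le
    have hc3 : (2 ^ (2 * m + 1)) ^ 2 - 1 ≤ 2 ^ (2 * m + 1) - 1 := by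
      refine Nat.le_of_mul_le_mul_right (c := (2 ^ (2 * m + 1)) ^ 2) ?_ (by positivity)
      calc ((2 ^ (2 * m + 1)) ^ 2 - 1) * (2 ^ (2 * m + 1)) ^ 2
          ≤ Nat.card D * Nat.card (H.B ⧸ M.subgroupOf H.B) * (2 ^ (2 * m + 1)) ^ 2 := Nat.mul_le_mul_right _ hc1
        _ = Nat.card (H.B ⧸ M.subgroupOf H.B) * (Nat.card D * (2 ^ (2 * m + 1)) ^ 2) := by ring
        _ ≤ _ := hc2
        _ = _ := mul_comm _ _
    have : 2 ^ (2 * m + 1) < (2 ^ (2 * m + 1)) ^ 2 := by nlinarith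
    omega
  -- the triple
  have hm : (bb u')⁻¹ * bb u ∈ M := by
    have := QuotientGroup.eq.1 hlab.symm
    rwa [Subgroup.mem_subgroupOf] at this
  refine not_binaryOn_triple (a₀ := (1 : Sz F m)) (a₁ := H.ws) (a₂ := u.1.1 * H.ws) (z₀ := 1) (z₁ := 1)
    (z₂ := u'.1.1 * u.1.1⁻¹) (g₂ := 1) (g₁ := u'.1.1 * u.1.1⁻¹) (g₀ := H.ws * (q u' * (q u)⁻¹) * H.ws⁻¹) ?_ ?_ ?_ ?_ hb
  · simp
  · simp [mul_mem (hQ u'.1.2) (inv_mem (hQ u.1.2))]
  · refine ⟨?_, ?_⟩
    · rw [show H.ws⁻¹ * ((1 : Sz F m)⁻¹ * (H.ws * (q u' * (q u)⁻¹) * H.ws⁻¹)) * H.ws = q u' * (q u)⁻¹ by group]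
      exact mul_mem (hQ (hq u')) (inv_mem (hQ (hq u)))
    · have e1 : ∀ w, w.1.1 * H.ws = H.ws * (q w * H.ws * bb w) := fun w => by
        rw [← hqb w, mul_assoc H.ws, ← mul_assoc H.ws H.ws, H.ws_mul_self, one_mul]
      have : (u.1.1 * H.ws)⁻¹ * ((u'.1.1 * u.1.1⁻¹)⁻¹ * (H.ws * (q u' * (q u)⁻¹) * H.ws⁻¹)) * (u.1.1 * H.ws) =
          (bb u')⁻¹ * bb u := by
        calc _ = (u'.1.1 * H.ws)⁻¹ * (H.ws * (q u' * (q u)⁻¹) * H.ws⁻¹) * (u.1.1 * H.ws) := by group
          _ = _ := by rw [e1 u, e1 u']; group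
      rw [this]
      exact hm
  · intro g g0 g1 g2
    simp only [inv_one, one_mul, mul_one] at g0 g1
    refine hbad g ⟨g0, mem_cj.2 g1⟩ ?_
    convert g2 using 1
    group

theorem not_binary_in_Q {M : Subgroup (Sz F m)} (h0 : Q0 H ≤ M) (hMQ : M ≤ H.Q) (hne : M ≠ Q0 H) (hQ : ¬ H.Q ≤ M) :
    ¬ BinaryOn M := by
  classical
  haveI := H.fin
  intro hb
  let R : AddSubgroup F :=
    { carrier := {a | H.us a 0 ∈ M}
      zero_mem' := by show H.us 0 0 ∈ M; rw [H.us_zero]; exact one_mem _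
      add_mem' := fun {a b} ha hb => by
        show H.us (a + b) 0 ∈ M
        have := mul_mem (show H.us a 0 ∈ M from ha) (show H.us b 0 ∈ M from hb)
        refine (aff_mem_iff H h0 (a := a + b) (k := 1) ?_ (by rw [H.ds_one]; exact one_mem _)).1 this
        simpa using aff_mul H (aff_us H a) (aff_us H b)
      neg_mem' := fun {a} ha => by show H.us (-a) 0 ∈ M; rw [H.neg_eq]; exact ha }
  have hmem : ∀ a b, H.us a b ∈ M ↔ a ∈ R := fun a b =>
    aff_mem_iff H h0 (k := 1) ⟨b, by rw [H.ds_one, mul_one]⟩ (by rw [H.ds_one]; exact one_mem _)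
  have hr0 : ∃ w ∈ R, w ≠ 0 := by
    by_contra h
    push Not at h
    refine hne (le_antisymm (fun g hg => ?_) h0)
    obtain ⟨a, b, rfl⟩ := hMQ hg
    exact ⟨b, by rw [h a ((hmem a b).1 hg)]⟩
  have hr1 : ∃ w, w ∉ R := by
    by_contra h
    push Not at h
    exact hQ (by rintro _ ⟨a, b, rfl⟩; exact (hmem a b).2 (h a))
  obtain ⟨ι, _, c, z, hpair, hno⟩ := exists_bad_family R hr0 hr1
  have hval : ∀ i a b, (H.ds (c i))⁻¹ * ((H.us (z i) 0)⁻¹ * H.us a b) * H.ds (c i) ∈ M ↔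
      (((c i)⁻¹ : Fˣ) : F) * (a - z i) ∈ R := by
    intro i a b
    rw [show H.ds (c i) = (H.ds (c i)⁻¹)⁻¹ by rw [H.ds_inv, inv_inv], inv_inv, H.us_inv, H.us_mul, H.ds_us_conj, hmem,
      show z i + a = a - z i by rw [sub_eq_add_neg, H.neg_eq, add_comm]]
  obtain ⟨g, hg⟩ := hb ι (fun i => H.ds (c i)) (fun i => H.us (z i) 0) fun i j => by
    obtain ⟨a, h1, h2⟩ := hpair i j
    exact ⟨H.us a 0, (hval i a 0).2 h1, (hval j a 0).2 h2⟩
  obtain ⟨i₀⟩ : Nonempty ι := not_isEmpty_iff.1 fun hE => hno ⟨0, fun i => isEmptyElim i⟩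
  obtain ⟨α, β, hab⟩ : g ∈ H.Q := by
    have h1 := H.Q_conj_mem (H.ds_mem_B (c i₀)) (hMQ (hg i₀))
    have h2 := mul_mem (H.us_mem_Q (z i₀) 0) h1
    convert h2 using 1
    group
  exact hno ⟨α, fun i => (hval i α β).1 (hab ▸ hg i)⟩

theorem not_binary_over_Q0 {M : Subgroup (Sz F m)} (h0 : Q0 H ≤ M) (hB : M ≤ H.B) (hne : M ≠ Q0 H) :
    ¬ BinaryOn M := by
  classical
  haveI := H.fin
  haveI := H.finite_Sz
  by_cases hQ : H.Q ≤ M
  · exact not_binary_Q_le H hQ hB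
  let P : Subgroup Fˣ := (M.subgroupOf H.B).map (kHom H)
  obtain ⟨l, hl⟩ := IsCyclic.exists_generator (α := P)
  have hk : ∀ g ∈ M, ∀ a k, Aff H g a k → k ∈ P := by
    rintro g hg a k ⟨b, rfl⟩
    exact ⟨⟨_, hB hg⟩, hg, kHom_eq H (H.us_mem_Q a b) k _ rfl⟩
  obtain ⟨⟨g, hgB⟩, hgM, hgl⟩ := l.2
  obtain ⟨a, k, hga⟩ := aff_exists H hgB
  have hkl : k = l.1 := by
    obtain ⟨b, hb⟩ := hga
    rw [← hgl]; exact (kHom_eq H (H.us_mem_Q a b) k _ hb).symm
  subst hkl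
  have hpow : ∀ k ∈ P, ∃ e : ℤ, (l.1 : Fˣ) ^ e = k := fun k hkP => by
    obtain ⟨e, he⟩ := Subgroup.mem_zpowers_iff.1 (hl ⟨k, hkP⟩)
    exact ⟨e, congrArg Subtype.val he⟩
  by_cases hl1 : (l.1 : Fˣ) = 1
  · refine not_binary_in_Q H h0 (fun g hg => ?_) hne hQ
    obtain ⟨a', k', hk'⟩ := aff_exists H (hB hg)
    obtain ⟨e, he⟩ := hpow k' (hk g hg a' k' hk')
    rw [hl1, one_zpow] at he
    obtain ⟨b, rfl⟩ := hk'
    rw [← he, H.ds_one, mul_one]
    exact H.us_mem_Q _ _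
  have hne0 : (1 : F) + (l.1 : Fˣ) ≠ 0 := fun e => hl1 (Units.ext ((H.add_eq_zero_iff 1 _).1 e).symm)
  set c : F := a / (1 + ((l.1 : Fˣ) : F)) with hc
  set u := (H.us c 0)⁻¹ with hu
  have huB : u ∈ H.B := inv_mem (H.us_mem_B c 0)
  have h0' : Q0 H ≤ cj u M := by
    rw [← cj_Q0_of_mem_B H huB]
    exact Subgroup.map_mono h0
  intro hb
  refine not_binary_frobenius H h0' ?_ ?_ (l := l.1) hl1 ?_ ?_ (hb.map (MulAut.conj u))
  · intro x hx
    rw [mem_cj] at hx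
    have := mul_mem (mul_mem huB (hB hx)) (inv_mem huB)
    simpa [mul_assoc] using this
  · intro h
    refine hQ fun x hx => ?_
    have := h (H.Q_conj_mem huB hx)
    rw [mem_cj] at this
    simpa [mul_assoc] using this
  · obtain ⟨b, hb'⟩ := aff_conj H (v := c) hga
    have hm : (H.us c 0)⁻¹ * g * H.us c 0 ∈ cj u M := by
      have := conj_mem_cj (g := u) hgM
      rwa [hu, inv_inv] at this
    have e : c + a + ((l.1 : Fˣ) : F) * c = 0 := by
      rw [hc]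
      field_simp
      linear_combination a * H.two_eq * (1 + ((l.1 : Fˣ) : F))
    rw [hb', e] at hm
    exact (Subgroup.mul_mem_cancel_left _ (h0' ⟨b, rfl⟩)).1 hm
  · intro x hx a' k' hk'
    rw [mem_cj, hu, inv_inv] at hx
    have hP : k' ∈ P := by
      have := aff_mul H (aff_mul H (aff_us H c) hk') (aff_us_inv H c)
      simp only [one_mul, mul_one] at this
      exact hk _ hx _ _ this
    obtain ⟨e, rfl⟩ := hpow k' hP
    rw [show H.ds ((l.1 : Fˣ) ^ e) = H.ds l.1 ^ e from map_zpow H.dsHom _ e]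
    refine zpow_mem ?_ e
    obtain ⟨b, hb'⟩ := aff_conj H (v := c) hga
    have hm : (H.us c 0)⁻¹ * g * H.us c 0 ∈ cj u M := by
      have := conj_mem_cj (g := u) hgM
      rwa [hu, inv_inv] at this
    have e : c + a + ((l.1 : Fˣ) : F) * c = 0 := by
      rw [hc]
      field_simp
      linear_combination a * H.two_eq * (1 + ((l.1 : Fˣ) : F))
    rw [hb', e] at hm
    exact (Subgroup.mul_mem_cancel_left _ (h0' ⟨b, rfl⟩)).1 hm

/-! ### Subgroups of odd order -/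

theorem not_binary_split {M : Subgroup (Sz F m)} (hMT : M ≤ H.T) (hne : M ≠ ⊥) : ¬ BinaryOn M := by
  obtain ⟨y, hy, hy1⟩ := (Subgroup.bot_or_exists_ne_one M).resolve_left hne
  obtain ⟨l, rfl⟩ := hMT hy
  have hl : l ≠ 1 := fun e => hy1 (by rw [e, map_one])
  set μ : F := (l : F) * th m (l : F) with hμ
  have hμ0 : μ ≠ 0 := mul_ne_zero l.ne_zero (pow_ne_zero _ l.ne_zero)
  have hμ1 : μ + 1 ≠ 0 := fun e => hl (Units.ext (H.ker_norm ((H.add_eq_zero_iff _ _).1 e)))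
  set b : F := (μ + 1) / μ with hb
  have hb0 : b ≠ 0 := div_ne_zero hμ1 hμ0
  have us0 : ∀ a c : F, H.us 0 a * H.us 0 c = H.us 0 (a + c) := fun a c => by rw [H.us_mul]; simp
  have inv0 : ∀ a : F, (H.us 0 a)⁻¹ = H.us 0 a := fun a => by rw [H.us_inv]; simp
  have sc : ∀ (k : Fˣ) (a : F), H.ds k * H.us 0 a = H.us 0 ((k : F) * th m (k : F) * a) * H.ds k := fun k a => by
    rw [H.ds_us, mul_zero]
  have hconj : ∀ (k : Fˣ) (a : F), (H.us 0 a)⁻¹ * H.ds k * H.us 0 a =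
      H.us 0 (a + (k : F) * th m (k : F) * a) * H.ds k := fun k a => by
    rw [inv0, mul_assoc, sc, ← mul_assoc, us0]
  refine not_binaryOn_triple (a₀ := (1 : Sz F m)) (a₁ := H.us 0 1) (a₂ := H.us 0 b) (z₀ := 1) (z₁ := 1)
    (z₂ := H.ds l) (g₂ := 1) (g₁ := H.ds l) (g₀ := H.us 0 1 * H.ds (l * l) * (H.us 0 1)⁻¹) ?_ ?_ ?_ ?_
  · simp
  · have hy' : H.ds l ∈ M := hy
    simp [hy']
  · refine ⟨?_, ?_⟩
    · rw [show (H.us 0 1)⁻¹ * ((1 : Sz F m)⁻¹ * (H.us 0 1 * H.ds (l * l) * (H.us 0 1)⁻¹)) * H.us 0 1 = H.ds (l * l) by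
        group, H.ds_mul]
      exact mul_mem hy hy
    · have e : (H.us 0 b)⁻¹ * ((H.ds l)⁻¹ * (H.us 0 1 * H.ds (l * l) * (H.us 0 1)⁻¹)) * H.us 0 b = H.ds l := by
        have pm : ∀ (x y : F) (k k' : Fˣ), H.us 0 x * H.ds k * (H.us 0 y * H.ds k') =
            H.us 0 (x + (k : F) * th m (k : F) * y) * H.ds (k * k') := fun x y k k' => by
          rw [← us0, H.ds_mul, ← mul_assoc, mul_assoc (H.us 0 x) (H.ds k), sc]
          group
        rw [inv0 b, inv0 1, H.ds_inv]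
        calc H.us 0 b * (H.ds l⁻¹ * (H.us 0 1 * H.ds (l * l) * H.us 0 1)) * H.us 0 b
            = H.us 0 b * H.ds l⁻¹ * (H.us 0 1 * H.ds (l * l) * (H.us 0 1 * H.us 0 b * H.ds 1)) := by
              rw [H.ds_one, mul_one]; group
          _ = _ := by rw [us0, pm, pm, mul_one, inv_mul_cancel_left]
          _ = H.ds l := ?_
        have hinv : ((l⁻¹ : Fˣ) : F) * th m ((l⁻¹ : Fˣ) : F) = μ⁻¹ := by
          refine eq_inv_of_mul_eq_one_left ?_
          rw [hμ, mul_mul_mul_comm, ← th_mul, Units.inv_mul, th_one, mul_one]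
        have hsq : ((l * l : Fˣ) : F) * th m ((l * l : Fˣ) : F) = μ * μ := by
          rw [hμ, Units.val_mul, th_mul, mul_mul_mul_comm]
        have h0 : b + ((l⁻¹ : Fˣ) : F) * th m ((l⁻¹ : Fˣ) : F) *
            (1 + ((l * l : Fˣ) : F) * th m ((l * l : Fˣ) : F) * (1 + b)) = 0 := by
          rw [hinv, hsq, hb]
          field_simp
          linear_combination (μ ^ 2 + μ + 1) * H.two_eq
        rw [h0, H.us_zero, one_mul]
      rw [e]
      exact hy
  · intro g g0 g1 g2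
    simp only [inv_one, one_mul, mul_one] at g0 g1
    obtain ⟨k, hk⟩ := hMT g0
    change H.ds k = g at hk
    subst hk
    obtain ⟨k', hk'⟩ := hMT g1
    change H.ds k' = _ at hk'
    rw [hconj] at hk'
    have h1 := Q_ds_inj H (one_mem _) (H.us_mem_Q 0 _) ((one_mul _).trans hk')
    have hk1 : (k : F) * th m (k : F) = 1 := by
      have := (H.us_inj.1 (h1.1.symm.trans H.us_zero.symm)).2
      rw [mul_one] at this
      exact ((H.add_eq_zero_iff _ _).1 this).symm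
    obtain rfl : k = 1 := Units.ext (H.ker_norm hk1)
    obtain ⟨k'', hk''⟩ := hMT g2
    change H.ds k'' = _ at hk''
    rw [H.ds_one, mul_one, H.ds_inv, hconj] at hk''
    have h2 := Q_ds_inj H (one_mem _) (H.us_mem_Q 0 _) ((one_mul _).trans hk'')
    have := (H.us_inj.1 (h2.1.symm.trans H.us_zero.symm)).2
    rw [show b + ((l⁻¹ : Fˣ) : F) * th m ((l⁻¹ : Fˣ) : F) * b = (1 + ((l⁻¹ : Fˣ) : F) * th m ((l⁻¹ : Fˣ) : F)) * b by
      ring, mul_eq_zero] at this
    rcases this with h | h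
    · exact hl (inv_eq_one.1 (Units.ext (H.ker_norm ((H.add_eq_zero_iff _ _).1 h).symm)))
    · exact hb0 h

/-- Refutation from a factorisation into conjugates outside the torus. -/
theorem not_binary_of_pair {M : Subgroup (Sz F m)} {x₀ y : Sz F m} (hx : x₀ ∈ Xt H ⊤)
    (hMU : M ≤ Subgroup.centralizer ({x₀} : Set (Sz F m))) (hy : y ∈ M) (hy1 : y ≠ 1) {c d : Sz F m}
    (he : y = c * y * c⁻¹ * (d * y * d⁻¹)) (hout : c * y * c⁻¹ ∉ Subgroup.centralizer ({x₀} : Set (Sz F m))) :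
    ¬ BinaryOn M := by
  obtain ⟨-, hcomm, heq, -⟩ := part_facts H hx
  set U := Subgroup.centralizer ({x₀} : Set (Sz F m)) with hU
  have hC : ∀ g : Sz F m, cj g U = Subgroup.centralizer {g * y * g⁻¹} := fun g => by
    rw [← heq y (hMU hy) hy1, cj, map_conj_centralizer]
  refine not_binaryOn_triple (a₀ := (1 : Sz F m)) (a₁ := c) (a₂ := d) (z₀ := 1) (z₁ := 1) (z₂ := y)
    (g₂ := 1) (g₁ := y) (g₀ := c * y * c⁻¹) ?_ ?_ ?_ ?_
  · simp
  · simp [hy]
  · refine ⟨by rw [show c⁻¹ * ((1 : Sz F m)⁻¹ * (c * y * c⁻¹)) * c = y by group]; exact hy, ?_⟩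
    have : d⁻¹ * (y⁻¹ * (c * y * c⁻¹)) * d = y⁻¹ := by
      nth_rewrite 1 [he]
      group
    rw [this]
    exact inv_mem hy
  · intro g g0 g1 g2
    simp only [inv_one, one_mul, mul_one] at g0 g1
    have hg : g = 1 := by
      by_contra hg
      refine hout ?_
      have h1 : g ∈ cj c U := mem_cj.2 (hMU g1)
      rw [← heq g (hMU g0) hg, Subgroup.mem_centralizer_singleton_iff]
      rw [hC, Subgroup.mem_centralizer_singleton_iff] at h1
      exact h1.symm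
    subst hg
    rw [mul_one] at g2
    have h2 : y ∈ cj d U := by
      have := inv_mem (mem_cj.2 (hMU g2))
      rwa [inv_inv] at this
    rw [hC, Subgroup.mem_centralizer_singleton_iff] at h2
    refine hout ?_
    have ht : d * y * d⁻¹ ∈ U := by
      rw [← heq y (hMU hy) hy1, Subgroup.mem_centralizer_singleton_iff]
      exact h2.symm
    have : c * y * c⁻¹ = y * (d * y * d⁻¹)⁻¹ := by
      nth_rewrite 2 [he]
      group
    rw [this]
    exact mul_mem (hMU hy) (inv_mem ht)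

theorem exists_pair_outside [Fintype (Sz F m)] {x₀ y : Sz F m}
    (hy : y ∈ Subgroup.centralizer ({x₀} : Set (Sz F m))) (hS : (1 / 5 : ℝ) < (pairSum y y).re)
    (hC : Subgroup.centralizer ({y} : Set (Sz F m)) = Subgroup.centralizer ({x₀} : Set (Sz F m)))
    (hbig : 5 * Nat.card (Subgroup.centralizer ({x₀} : Set (Sz F m))) ^ 3 ≤ Nat.card (Sz F m)) :
    ∃ c d : Sz F m, y = c * y * c⁻¹ * (d * y * d⁻¹) ∧ c * y * c⁻¹ ∉ Subgroup.centralizer ({x₀} : Set (Sz F m)) := by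
  classical
  haveI := H.finite_Sz
  by_contra hne
  push Not at hne
  set u := Nat.card (Subgroup.centralizer ({x₀} : Set (Sz F m))) with hu
  set T := {p : Sz F m × Sz F m // IsConj y p.1 ∧ IsConj y p.2 ∧ p.1 * p.2 = y}
  have hT : Nat.card T ≤ u := by
    have hmem : ∀ p : T, p.1.1 ∈ Subgroup.centralizer ({x₀} : Set (Sz F m)) := by
      rintro ⟨⟨p, p'⟩, h1, h2, h3⟩
      obtain ⟨c, hc⟩ := isConj_iff.1 h1
      obtain ⟨d, hd⟩ := isConj_iff.1 h2
      have := hne c d (by rw [hc, hd]; exact h3.symm)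
      rwa [hc] at this
    refine Nat.card_le_card_of_injective (fun p : T => (⟨p.1.1, hmem p⟩ : Subgroup.centralizer ({x₀} : Set (Sz F m)))) ?_
    rintro ⟨⟨p, p'⟩, h1, h2, h3⟩ ⟨⟨r, r'⟩, k1, k2, k3⟩ e
    obtain rfl : p = r := congrArg Subtype.val e
    exact Subtype.ext (Prod.ext rfl (mul_left_cancel (h3.trans k3.symm)))
  have hcls : (Nat.card {g : Sz F m // IsConj y g} : ℂ) * u = (Nat.card (Sz F m) : ℂ) := by
    have h := sum_conj y (fun _ => (1 : ℂ)) (fun _ _ => rfl)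
    rw [Finset.sum_const, nsmul_eq_mul, mul_one, mul_one, hC] at h
    rw [Nat.card_eq_fintype_card (α := {g : Sz F m // IsConj y g}), Fintype.card_subtype, mul_comm]
    exact h
  have hc := H38.class_coeff y y y
  change (Nat.card T : ℂ) = _ * pairSum y y at hc
  have hG : (Nat.card (Sz F m) : ℂ) ≠ 0 := Nat.cast_ne_zero.2 Nat.card_pos.ne'
  have key : (Nat.card T : ℂ) * (u : ℂ) ^ 2 = (Nat.card (Sz F m) : ℂ) * pairSum y y := by
    rw [hc]
    field_simp
    rw [← hcls]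
    ring
  have key' := congrArg Complex.re key
  rw [show (Nat.card T : ℂ) * (u : ℂ) ^ 2 = ((Nat.card T * u ^ 2 : ℕ) : ℂ) by push_cast; rfl, Complex.natCast_re,
    ← Complex.ofReal_natCast, Complex.re_ofReal_mul] at key'
  have h1 : ((Nat.card T * u ^ 2 : ℕ) : ℝ) ≤ ((u ^ 3 : ℕ) : ℝ) := by
    exact_mod_cast (Nat.mul_le_mul_right (u ^ 2) hT).trans (le_of_eq (by ring))
  have h2 : ((5 * u ^ 3 : ℕ) : ℝ) ≤ (Nat.card (Sz F m) : ℝ) := by exact_mod_cast hbig
  have h3 : (0 : ℝ) < Nat.card (Sz F m) := by exact_mod_cast Nat.card_pos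
  push_cast at key' h1 h2
  have h4 := mul_lt_mul_of_pos_left hS h3
  linarith

omit H in
theorem pairSum_self_bounds [Fintype (Sz F m)] {H : SzHyp F m} {xT fT xP fP xM fM z x : Sz F m}
    (R : Reps H xT fT xP fP xM fM z x) {N nP nM : ℕ} {St W W' : Cfsg.IrrCharacter (Sz F m)}
    {lam : Fin N → (Fˣ →* ℂˣ)} {X : Fin N → Cfsg.IrrCharacter (Sz F m)} {ψP : Fin nP → Sz F m → ℂ}
    {P : Fin nP → Cfsg.IrrCharacter (Sz F m)} {ψM : Fin nM → Sz F m → ℂ} {M : Fin nM → Cfsg.IrrCharacter (Sz F m)}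
    (T : Table H xP xM z x St lam X W W' ψP P ψM M) (y : Sz F m) (hy1 : y ≠ 1)
    (hy : y ∈ Subgroup.centralizer ({xP} : Set (Sz F m)) ∨ y ∈ Subgroup.centralizer ({xM} : Set (Sz F m))) :
    (1 / 5 : ℝ) < (pairSum y y).re := by
  have S := T.good.setup
  have hh : (2 : ℝ) ≤ 2 ^ m := le_self_pow₀ one_le_two (by have := H.hm; omega)
  obtain ⟨t7, v5, u13, q64, i1, i2, i3, i4, i5, i6, i7, i8, i9⟩ :=
    cover_ineq (q := (2 : ℝ) ^ (2 * m + 1)) (r := (2 : ℝ) ^ (m + 1)) (by ring) (by ring) hh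
  have A1 : -(1 / 64 : ℝ) ≤ -1 / ((2 : ℝ) ^ (2 * m + 1) * 2 ^ (2 * m + 1)) := by
    rw [le_div_iff₀ (by linarith)]; linarith
  rw [T.pairSum_eq]
  rcases hy with hy | hy
  · obtain ⟨a1, a2, a3, a4, a5, a6⟩ := T.good.valP y hy hy1
    have htr := S.famP.psi.triple y hy hy1 y hy hy1
    rw [show (Nat.card (Subgroup.centralizer ({xP} : Set (Sz F m))) : ℝ) =
      (2 : ℝ) ^ (2 * m + 1) + 2 ^ (m + 1) + 1 by rw [R.eP]; push_cast; rfl] at htr
    have e : (∑ j, (P j).1 y * (P j).1 y * conj ((P j).1 y)).re = -(∑ j, ψP j y * ψP j y * ψP j y).re := by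
      rw [← Complex.neg_re, ← Finset.sum_neg_distrib]
      refine congrArg Complex.re (Finset.sum_congr rfl fun j _ => ?_)
      rw [a3]; simp [S.famP.psi.real j y hy]
    rw [e]
    simp only [a1, a2, a4, a5, a6, Int.cast_one, map_one, map_neg, map_zero, mul_one, mul_zero,
      Finset.sum_const_zero, Complex.zero_re, zero_div, add_zero, neg_mul_neg, one_mul, mul_neg, Complex.neg_re,
      Complex.one_re]
    have A2 : 0 ≤ (1 + 1) / (((2 : ℝ) ^ (2 * m + 1) - 1) * 2 ^ m) :=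
      div_nonneg (by norm_num) (mul_nonneg (by linarith) (by positivity))
    have A3 : -(3 / 4 : ℝ) ≤ -(∑ j, ψP j y * ψP j y * ψP j y).re /
        (((2 : ℝ) ^ (2 * m + 1) - 1) * ((2 : ℝ) ^ (2 * m + 1) - 2 ^ (m + 1) + 1)) := by
      rw [le_div_iff₀ (mul_pos (by linarith) (by linarith))]; linarith
    linarith
  · obtain ⟨a1, a2, a3, a4, a5, a6⟩ := T.good.valM y hy hy1
    have htr := S.famM.psi.triple y hy hy1 y hy hy1
    rw [show (Nat.card (Subgroup.centralizer ({xM} : Set (Sz F m))) : ℝ) =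
      (2 : ℝ) ^ (2 * m + 1) - 2 ^ (m + 1) + 1 by
        rw [R.eM, Nat.cast_add, Nat.cast_sub (Nat.pow_le_pow_right two_pos (by omega))]; push_cast; rfl] at htr
    have e : (∑ j, (M j).1 y * (M j).1 y * conj ((M j).1 y)).re = -(∑ j, ψM j y * ψM j y * ψM j y).re := by
      rw [← Complex.neg_re, ← Finset.sum_neg_distrib]
      refine congrArg Complex.re (Finset.sum_congr rfl fun j _ => ?_)
      rw [a3]; simp [S.famM.psi.real j y hy]
    rw [e]
    simp only [a1, a2, a4, a5, a6, Int.cast_one, map_one, map_neg, map_zero, mul_one, mul_zero,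
      Finset.sum_const_zero, Complex.zero_re, zero_div, add_zero, neg_mul_neg, one_mul, mul_neg, Complex.neg_re,
      Complex.one_re]
    have A2 : -(1 / 7 : ℝ) ≤ (-1 + -1) / (((2 : ℝ) ^ (2 * m + 1) - 1) * 2 ^ m) := by
      rw [le_div_iff₀ (mul_pos (by linarith) (by linarith))]; linarith
    have A3 : -(1 / 2 : ℝ) ≤ -(∑ j, ψM j y * ψM j y * ψM j y).re /
        (((2 : ℝ) ^ (2 * m + 1) - 1) * ((2 : ℝ) ^ (2 * m + 1) + 2 ^ (m + 1) + 1)) := by
      rw [le_div_iff₀ (mul_pos (by linarith) (by linarith))]; linarith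
    linarith

omit H in
theorem big_ineq {q r : ℕ} (hq : 8 ≤ q) (hr : r + 2 < q) (hrr : r * r = 2 * q) :
    5 * (q + r + 1) ^ 3 ≤ q ^ 2 * (q ^ 2 + 1) * (q - 1) ∧ 5 * (q - r + 1) ^ 3 ≤ q ^ 2 * (q ^ 2 + 1) * (q - 1) := by
  have hr' : 2 * r ≤ q := by nlinarith
  obtain ⟨d, rfl⟩ : ∃ d, q = 8 + d := ⟨q - 8, by omega⟩
  have h1 : 5 * (8 + d + r + 1) ^ 3 ≤ (8 + d) ^ 2 * ((8 + d) ^ 2 + 1) * (8 + d - 1) := by
    have h2 : 8 * (8 + d + r + 1) ^ 3 ≤ (3 * d + 26) ^ 3 := by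
      have : 2 * (8 + d + r + 1) ≤ 3 * d + 26 := by omega
      calc 8 * (8 + d + r + 1) ^ 3 = (2 * (8 + d + r + 1)) ^ 3 := by ring
        _ ≤ _ := Nat.pow_le_pow_left this 3
    have h3 : 5 * (3 * d + 26) ^ 3 ≤ 8 * ((8 + d) ^ 2 * ((8 + d) ^ 2 + 1) * (7 + d)) := by
      have e1 : 5 * (3 * d + 26) ^ 3 = 87880 + 30420 * d + 3510 * d ^ 2 + 135 * d ^ 3 := by ring
      have e2 : 8 * ((8 + d) ^ 2 * ((8 + d) ^ 2 + 1) * (7 + d)) =
          8 * (7 + d) * ((64 + 16 * d + d ^ 2) * (65 + 16 * d + d ^ 2)) := by ring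
      rw [e1, e2]
      have f1 : (64 + 16 * d + d ^ 2) * 65 ≤ (64 + 16 * d + d ^ 2) * (65 + 16 * d + d ^ 2) :=
        Nat.mul_le_mul_left _ (by omega)
      calc 87880 + 30420 * d + 3510 * d ^ 2 + 135 * d ^ 3
          ≤ 8 * (7 + d) * ((64 + 16 * d + d ^ 2) * 65) := by nlinarith
        _ ≤ _ := Nat.mul_le_mul_left _ f1
    rw [show 8 + d - 1 = 7 + d by omega]
    omega
  refine ⟨h1, le_trans ?_ h1⟩
  gcongr
  omega

theorem not_binary_odd {M : Subgroup (Sz F m)} (hne : M ≠ ⊥) (hodd : ∀ i ∈ M, i * i = 1 → i = 1) :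
    ¬ BinaryOn M := by
  classical
  haveI := H.finite_Sz
  haveI : Fintype (Sz F m) := Fintype.ofFinite _
  have hXt : ∀ y ∈ M, y ≠ 1 → y ∈ Xt H ⊤ := fun y hy hy1 => ⟨Subgroup.mem_top _, hy1, fun ⟨c, a, b, hc⟩ => by
    have e := H.us_pow_four a b
    rw [← hc] at e
    have h4 : y * y * (y * y) = 1 := by
      rw [conj_pow] at e
      rw [show y * y * (y * y) = y ^ 4 by simp only [pow_succ, pow_zero, one_mul, mul_assoc]]
      exact conj_eq_one_iff.1 e
    exact hy1 (hodd y hy (hodd _ (mul_mem hy hy) h4))⟩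
  obtain ⟨a, ha, ha1, hnorm⟩ : ∃ a ∈ M, a ≠ 1 ∧ ∀ h ∈ M, h ∈ NC a := by
    by_cases hA : NoAbNormal M
    · exfalso
      obtain ⟨g, k, K, -, -, -, hg⟩ := classify H hA hne
      have hw : H.ws ∈ cj g M := hg ▸ Subgroup.subset_closure (Or.inr (Or.inr rfl))
      rw [mem_cj] at hw
      have := hodd _ hw (by
        calc g⁻¹ * H.ws * g * (g⁻¹ * H.ws * g) = g⁻¹ * (H.ws * H.ws) * g := by group
          _ = 1 := by rw [H.ws_mul_self]; group)
      refine H.ws_notMem_B ?_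
      rw [show H.ws = g * (g⁻¹ * H.ws * g) * g⁻¹ by group, this, mul_one, mul_inv_cancel]
      exact one_mem _
    simp only [NoAbNormal, not_forall] at hA
    obtain ⟨A, hAM, hAn, hAc, hAne⟩ := hA
    obtain ⟨a, ha, ha1⟩ := (Subgroup.bot_or_exists_ne_one A).resolve_left hAne
    refine ⟨a, hAM ha, ha1, fun h hh => ?_⟩
    obtain ⟨-, -, heq, -⟩ := part_facts H (hXt a (hAM ha) ha1)
    rw [NC, Subgroup.mem_normalizer_iff_map_conj_eq]
    show cj h (Subgroup.centralizer {a}) = _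
    rw [cj, map_conj_centralizer]
    exact heq _ (Subgroup.mem_centralizer_singleton_iff.2 (hAc _ (hAn h hh a ha) _ ha))
      (fun e => ha1 (conj_eq_one_iff.1 e))
  obtain ⟨xT, fT, xP, fP, xM, fM, z, x, R⟩ := exists_reps H
  obtain ⟨x₀, f, e, D, hx₀, c, hc⟩ := torus_cases H R.DT R.DP R.DM R.eT R.eP R.eM (hXt a ha ha1)
  have hMU : cj c⁻¹ M ≤ Subgroup.centralizer ({x₀} : Set (Sz F m)) := by
    intro d hd
    have hd0 := hd
    rw [mem_cj, inv_inv] at hd0
    refine D.mem_of_odd ?_ ?_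
    · have := hnorm _ hd0
      rw [NC, Subgroup.mem_normalizer_iff_map_conj_eq] at this
      rw [NC, Subgroup.mem_normalizer_iff_map_conj_eq]
      change cj (c * d * c⁻¹) (Subgroup.centralizer {a}) = Subgroup.centralizer {a} at this
      show cj d (Subgroup.centralizer {x₀}) = _
      rw [hc, cj_cj] at this
      have h2 := congrArg (cj c⁻¹) this
      rwa [cj_cj, cj_cj, inv_mul_cancel, cj_one, show c⁻¹ * (c * d * c⁻¹ * c) = d by group] at h2
    · rw [← (MulAut.conj c).orderOf_eq d]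
      refine Nat.odd_iff.2 ?_
      by_contra h
      have h2 : 2 ∣ orderOf ((MulAut.conj c) d) := by omega
      have hi := pow_orderOf_eq_one ((MulAut.conj c) d)
      obtain ⟨j, hj⟩ := h2
      have hj0 : 0 < j := by
        have := orderOf_pos ((MulAut.conj c) d); omega
      have := hodd ((MulAut.conj c) d ^ j) (pow_mem hd0 j) (by rw [← pow_add, ← two_mul, ← hj, hi])
      exact absurd this (pow_ne_one_of_lt_orderOf hj0.ne' (by omega))
  intro hb
  have hb' := hb.map (MulAut.conj c⁻¹)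
  change BinaryOn (cj c⁻¹ M) at hb'
  have hne' : cj c⁻¹ M ≠ ⊥ := fun e => hne (by
    have := congrArg (cj c) e
    rwa [cj_cj, mul_inv_cancel, cj_one, cj, Subgroup.map_bot] at this)
  obtain ⟨y, hy, hy1⟩ := (Subgroup.bot_or_exists_ne_one _).resolve_left hne'
  rcases hx₀ with rfl | rfl | rfl
  · exact not_binary_split H (R.CT ▸ hMU) hne' hb'
  all_goals
    obtain ⟨hlt, h4⟩ := H.th_add_two_lt
    rw [H.card] at hlt
    have hrr : 2 ^ (m + 1) * 2 ^ (m + 1) = 2 * 2 ^ (2 * m + 1) := by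
      rw [← pow_add, ← pow_succ']; congr 1; omega
    have hq8 := H.eight_le_card
    rw [H.card] at hq8
    obtain ⟨i1, i2⟩ := big_ineq hq8 hlt hrr
    obtain ⟨N, nP, nM, St, W, W', lam, X, ψP, P, ψM, Mc, T⟩ := R.exists_table
  · obtain ⟨c', d', he, hout⟩ := exists_pair_outside H (hMU hy) (pairSum_self_bounds R T y hy1 (Or.inl (hMU hy)))
      ((part_facts H D.hx).2.2.1 y (hMU hy) hy1) (by rw [R.eP, H.card_Sz]; exact i1)
    exact not_binary_of_pair H D.hx hMU hy hy1 he hout hb'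
  · obtain ⟨c', d', he, hout⟩ := exists_pair_outside H (hMU hy) (pairSum_self_bounds R T y hy1 (Or.inr (hMU hy)))
      ((part_facts H D.hx).2.2.1 y (hMU hy) hy1) (by rw [R.eM, H.card_Sz]; exact i2)
    exact not_binary_of_pair H D.hx hMU hy hy1 he hout hb'

/-- The binary coset actions of a Suzuki group. -/
theorem binaryOn_classification {M : Subgroup (Sz F m)} (hM : M ≠ ⊤) :
    BinaryOn M ↔ M = ⊥ ∨ ∃ g, M = cj g (Q0 H) := by
  classical
  haveI := H.finite_Sz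
  constructor
  · intro hb
    by_contra hne
    push Not at hne
    obtain ⟨hne, hQ⟩ := hne
    by_cases hodd : ∀ i ∈ M, i * i = 1 → i = 1
    · exact not_binary_odd H hne hodd hb
    push Not at hodd
    obtain ⟨i, hi, hii, hi1⟩ := hodd
    obtain ⟨c, hc⟩ := H.exists_conj_mem_Q (g := i) ⟨1, by rw [pow_one, sq, hii]⟩
    have hcj : c * i * c⁻¹ * (c * i * c⁻¹) = 1 := by
      calc c * i * c⁻¹ * (c * i * c⁻¹) = c * (i * i) * c⁻¹ := by group
        _ = 1 := by rw [hii]; group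
    obtain ⟨b, hb0⟩ := mem_Q0_of_sq H hc hcj
    have hb1 : b ≠ 0 := fun e => hi1 (conj_eq_one_iff.1 (by rw [hb0, e, H.us_zero]))
    have hmem : H.us 0 b ∈ cj c M := hb0 ▸ conj_mem_cj hi
    have hb' := hb.map (MulAut.conj c)
    have htop : cj c M ≠ ⊤ := fun e => hM (by
      have := congrArg (cj c⁻¹) e
      rw [cj_cj, inv_mul_cancel, cj_one] at this
      rw [this]
      exact eq_top_iff.2 fun x _ => by rw [mem_cj]; exact Subgroup.mem_top _)
    by_cases h0 : Q0 H ≤ cj c M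
    · refine not_binary_over_Q0 H h0 (le_B_of_Q0_le H h0 htop) (fun e => hQ c⁻¹ ?_) hb'
      rw [← e, cj_cj, inv_mul_cancel, cj_one]
    · exact not_binary_partial H htop ⟨b, hb1, hmem⟩ h0 hb'
  · rintro (rfl | ⟨g, rfl⟩)
    · exact binaryOn_bot H
    · exact (binaryOn_Q0 H).map (MulAut.conj g)

end Cfsg.Agent.H8.SzSub
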