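import Cfsg.Agent.H8.SzCharTable
import Cfsg.Agent.H7.SzLie
import Cfsg.Prelude.Def_DegreeGraph

/-!
The character degrees of the Suzuki groups.
-/

set_option autoImplicit false

namespace Cfsg.Agent.H8.SzSub

open Cfsg.Agent.H7

variable {F : Type*} [Field F] {m : ℕ}

theorem charDegrees_congr {G K : Type*} [Group G] [Group K] (e : K ≃* G) :
    Cfsg.charDegrees K = Cfsg.charDegrees G := by
  ext d
  constructor
  · rintro ⟨χ, hχ⟩
    exact ⟨H43.irrCongr e.symm χ, by rw [H43.charDegree_irrCongr]; exact hχ⟩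
  · rintro ⟨χ, hχ⟩
    exact ⟨H43.irrCongr e χ, by rw [H43.charDegree_irrCongr]; exact hχ⟩

theorem charDegrees_Sz [Fintype (Sz F m)] (H : SzHyp F m) :
    Cfsg.charDegrees (Sz F m) = ({1, (2 ^ (2 * m + 1)) ^ 2, (2 ^ (2 * m + 1)) ^ 2 + 1,
      (2 ^ (2 * m + 1) - 1) * (2 ^ (2 * m + 1) - 2 ^ (m + 1) + 1),
      (2 ^ (2 * m + 1) - 1) * (2 ^ (2 * m + 1) + 2 ^ (m + 1) + 1),
      (2 ^ (2 * m + 1) - 1) * 2 ^ m} : Set ℕ) := by
  haveI := H.finite_Sz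
  obtain ⟨xT, fT, xP, fP, xM, fM, z, x, R⟩ := exists_reps H
  obtain ⟨N, nP, nM, St, W, W', lam, X, ψP, P, ψM, M, T⟩ := R.exists_table
  have l1 : 1 ≤ 2 ^ (2 * m + 1) := Nat.one_le_two_pow
  have l2 : 2 ^ (m + 1) ≤ 2 ^ (2 * m + 1) := Nat.pow_le_pow_right two_pos (by omega)
  have deg : ∀ (χ : Cfsg.IrrCharacter (Sz F m)) (n : ℕ), χ.1 1 = (n : ℂ) → Cfsg.charDegree χ.1 = n := fun χ n h => by
    have h' := H43.irr_charDegree_spec χ
    rw [h] at h'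
    exact_mod_cast h'.symm
  have d1 : Cfsg.charDegree (H26.oneIrr (Sz F m)).1 = 1 := deg _ 1 (by rw [H26.oneIrr_val, Nat.cast_one])
  have d2 : Cfsg.charDegree St.1 = (2 ^ (2 * m + 1)) ^ 2 := deg _ _ (by rw [T.good.setup.st.one]; push_cast; ring)
  have d3 : ∀ j, Cfsg.charDegree (X j).1 = (2 ^ (2 * m + 1)) ^ 2 + 1 := fun j => deg _ _ (by
    rw [T.good.setup.series.one j]; push_cast; ring)
  have d4 : ∀ j, Cfsg.charDegree (P j).1 = (2 ^ (2 * m + 1) - 1) * (2 ^ (2 * m + 1) - 2 ^ (m + 1) + 1) := fun j =>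
    deg _ _ (by rw [T.degP j]; push_cast [Nat.cast_sub l1, Nat.cast_sub l2]; ring)
  have d5 : ∀ j, Cfsg.charDegree (M j).1 = (2 ^ (2 * m + 1) - 1) * (2 ^ (2 * m + 1) + 2 ^ (m + 1) + 1) := fun j =>
    deg _ _ (by rw [T.degM j]; push_cast [Nat.cast_sub l1]; ring)
  have d6 : Cfsg.charDegree W.1 = (2 ^ (2 * m + 1) - 1) * 2 ^ m :=
    deg _ _ (by rw [T.degW.1]; push_cast [Nat.cast_sub l1]; ring)
  have d7 : Cfsg.charDegree W'.1 = (2 ^ (2 * m + 1) - 1) * 2 ^ m :=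
    deg _ _ (by rw [T.degW.2]; push_cast [Nat.cast_sub l1]; ring)
  have hN : 0 < N := by
    have := T.good.setup.series.card
    obtain ⟨hlt, hlt4⟩ := H.th_add_two_lt
    rw [H.card] at hlt
    omega
  ext d
  simp only [Set.mem_insert_iff, Set.mem_singleton_iff]
  constructor
  · rintro ⟨χ, hχ⟩
    obtain ⟨i, rfl⟩ := T.good.setup.bij.2 χ
    subst hχ
    rcases i with ((i | i) | (i | i)) | i
    · fin_cases i <;> simp [d1, d2]
    · fin_cases i <;> simp [d6, d7]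
    · simp [d3]
    · simp [d4]
    · simp [d5]
  · rintro (rfl | rfl | rfl | rfl | rfl | rfl)
    exacts [⟨_, d1⟩, ⟨_, d2⟩, ⟨_, d3 ⟨0, hN⟩⟩, ⟨_, d4 ⟨0, T.good.setup.famP.psi.pos⟩⟩,
      ⟨_, d5 ⟨0, T.good.setup.famM.psi.pos⟩⟩, ⟨_, d6⟩]

theorem degree_graph_arith {t u v q m p s : ℕ} (huv : u * v = q ^ 2 + 1) (hq : q = 2 ^ (2 * m + 1)) (hm : 1 ≤ m)
    (hp : p.Prime) (hs : s.Prime) (hps : p ≠ s) :
    (∃ d ∈ ({1, q ^ 2, q ^ 2 + 1, t * v, t * u, t * 2 ^ m} : Set ℕ), p * s ∣ d) ↔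
      ((p ∣ t * (q ^ 2 + 1) ∧ s ∣ t * (q ^ 2 + 1)) ∨ (p = 2 ∧ s ∣ t) ∨ (s = 2 ∧ p ∣ t)) := by
  have hco : Nat.Coprime p s := (Nat.coprime_primes hp hs).2 hps
  have two : ∀ r, r.Prime → ∀ k, r ∣ 2 ^ k → r = 2 := fun r hr k h =>
    (Nat.prime_dvd_prime_iff_eq hr Nat.prime_two).1 (hr.dvd_of_dvd_pow h)
  have hv : v ∣ q ^ 2 + 1 := ⟨u, by rw [← huv, mul_comm]⟩
  have hu : u ∣ q ^ 2 + 1 := ⟨v, huv.symm⟩
  simp only [Set.mem_insert_iff, Set.mem_singleton_iff]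
  constructor
  · rintro ⟨d, (rfl | rfl | rfl | rfl | rfl | rfl), h⟩
    · exact absurd (Nat.dvd_one.1 ((dvd_mul_right p s).trans h)) hp.ne_one
    · rw [hq, ← pow_mul] at h
      exact absurd ((two p hp _ ((dvd_mul_right p s).trans h)).trans (two s hs _ ((dvd_mul_left s p).trans h)).symm) hps
    · exact Or.inl ⟨((dvd_mul_right p s).trans h).trans (dvd_mul_left _ _),
        ((dvd_mul_left s p).trans h).trans (dvd_mul_left _ _)⟩
    · exact Or.inl ⟨((dvd_mul_right p s).trans h).trans (mul_dvd_mul_left _ hv),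
        ((dvd_mul_left s p).trans h).trans (mul_dvd_mul_left _ hv)⟩
    · exact Or.inl ⟨((dvd_mul_right p s).trans h).trans (mul_dvd_mul_left _ hu),
        ((dvd_mul_left s p).trans h).trans (mul_dvd_mul_left _ hu)⟩
    · rcases hp.dvd_mul.1 ((dvd_mul_right p s).trans h) with h1 | h1 <;>
        rcases hs.dvd_mul.1 ((dvd_mul_left s p).trans h) with h2 | h2
      · exact Or.inl ⟨h1.trans (dvd_mul_right _ _), h2.trans (dvd_mul_right _ _)⟩
      · exact Or.inr (Or.inr ⟨two s hs _ h2, h1⟩)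
      · exact Or.inr (Or.inl ⟨two p hp _ h1, h2⟩)
      · exact absurd ((two p hp _ h1).trans (two s hs _ h2).symm) hps
  · rintro (⟨h1, h2⟩ | ⟨rfl, h2⟩ | ⟨rfl, h1⟩)
    · rcases hp.dvd_mul.1 h1 with h1 | h1 <;> rcases hs.dvd_mul.1 h2 with h2 | h2
      · exact ⟨t * v, by simp, (hco.mul_dvd_of_dvd_of_dvd h1 h2).trans (dvd_mul_right _ _)⟩
      · rw [← huv] at h2
        rcases hs.dvd_mul.1 h2 with h2 | h2
        · exact ⟨t * u, by simp, mul_dvd_mul h1 h2⟩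
        · exact ⟨t * v, by simp, mul_dvd_mul h1 h2⟩
      · rw [← huv] at h1
        rcases hp.dvd_mul.1 h1 with h1 | h1
        · exact ⟨t * u, by simp, by rw [mul_comm p]; exact mul_dvd_mul h2 h1⟩
        · exact ⟨t * v, by simp, by rw [mul_comm p]; exact mul_dvd_mul h2 h1⟩
      · exact ⟨q ^ 2 + 1, by simp, hco.mul_dvd_of_dvd_of_dvd h1 h2⟩
    · exact ⟨t * 2 ^ m, by simp, by rw [mul_comm]; exact mul_dvd_mul h2 (dvd_pow_self 2 (by omega))⟩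
    · exact ⟨t * 2 ^ m, by simp, mul_dvd_mul h1 (dvd_pow_self 2 (by omega))⟩

end Cfsg.Agent.H8.SzSub
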