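import Cfsg.Agent.H7.SzLie
import Cfsg.Agent.H7.SzPartition

/-!
# Elements of odd order in a Suzuki group fix no non-zero vector of the natural module
-/

set_option autoImplicit false

namespace Cfsg.Agent.H8.Sz

open Cfsg Cfsg.Agent.H7 Matrix

variable {F : Type*} [Field F] {m : ℕ}

theorem pow_two_pow_eq_one (H : SzHyp F m) {k : Fˣ} {j : ℕ} (h : (k : F) ^ (2 ^ j) = 1) : k = 1 := by
  haveI := H.fin
  have hk : k ^ (2 ^ j) = 1 := Units.ext (by simpa using h)
  have h2 : orderOf k ∣ 2 ^ (2 * m + 1) - 1 := H.card_units ▸ orderOf_dvd_natCard k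
  have hco : Nat.Coprime (2 ^ j) (2 ^ (2 * m + 1) - 1) := by
    refine Nat.Coprime.pow_left _ (Nat.coprime_two_left.2 ?_)
    exact Nat.Even.sub_odd Nat.one_le_two_pow (Nat.even_pow.2 ⟨even_two, by omega⟩) odd_one
  exact orderOf_eq_one_iff.1 (Nat.eq_one_of_dvd_coprimes hco (orderOf_dvd_of_pow_eq_one hk) h2)

theorem ds_fixes_only_zero (H : SzHyp F m) {k : Fˣ} (hk : k ≠ 1) (v : Fin 4 → F)
    (h : (H.ds k).1.1 *ᵥ v = v) : v = 0 := by
  have e1 : (k : F) ^ (2 ^ m + 1) ≠ 1 := fun e => hk (Units.ext (H.pow_inj_one e))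
  have e2 : (k : F) ^ (2 ^ m) ≠ 1 := fun e => hk (pow_two_pow_eq_one H e)
  have e3 : ((k : F) ^ (2 ^ m + 1))⁻¹ ≠ 1 := fun e => e1 (inv_eq_one.1 e)
  have e4 : ((k : F) ^ (2 ^ m))⁻¹ ≠ 1 := fun e => e2 (inv_eq_one.1 e)
  have hmul : ∀ {c x : F}, c ≠ 1 → c * x = x → x = 0 := fun {c x} hc hx => by
    by_contra hne
    exact hc ((mul_eq_right₀ hne).1 hx)
  ext i
  have hi := congrFun h i
  fin_cases i <;>
    simp [SzHyp.ds, dm, Matrix.mulVec, dotProduct, Fin.sum_univ_four] at hi ⊢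
  · exact hmul e1 hi
  · exact hmul e2 hi
  · exact hmul e4 hi
  · exact hmul e3 hi

theorem prime_not_dvd {r q d : ℕ} (hr : r.Prime) (hr2 : r ≠ 2) (hd : 1 ≤ d) (hd' : d ≤ 3)
    (h : r ∣ q ^ 2 + 1) : ¬ q ^ 4 ≡ q ^ d [MOD r] := by
  haveI := Fact.mk hr
  intro hmod
  have hq2 : ((q : ZMod r)) ^ 2 = -1 := by
    have h0 := (ZMod.natCast_eq_zero_iff (q ^ 2 + 1) r).2 h
    push_cast at h0
    linear_combination h0
  have hm' := (ZMod.natCast_eq_natCast_iff (q ^ 4) (q ^ d) r).2 hmod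
  push_cast at hm'
  rw [show (q : ZMod r) ^ 4 = 1 by linear_combination ((q : ZMod r) ^ 2 - 1) * hq2] at hm'
  have h2 : (2 : ZMod r) ≠ 0 := fun e =>
    hr2 ((Nat.prime_dvd_prime_iff_eq hr Nat.prime_two).1 ((ZMod.natCast_eq_zero_iff 2 r).1 e))
  interval_cases d
  · rw [pow_one] at hm'
    rw [← hm'] at hq2
    exact h2 (by linear_combination hq2)
  · exact h2 (by linear_combination hm' + hq2)
  · have h3 : (q : ZMod r) = -1 := by linear_combination -(q : ZMod r) * hq2 * (-1) + hm'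
    rw [h3] at hq2
    exact h2 (by linear_combination hq2)

theorem inv_mulVec_cancel (g : Sz F m) (u : Fin 4 → F) : (g⁻¹).1.1 *ᵥ (g.1.1 *ᵥ u) = u := by
  rw [Matrix.mulVec_mulVec, ← Matrix.SpecialLinearGroup.coe_mul, ← Subgroup.coe_mul, inv_mul_cancel,
    OneMemClass.coe_one, Matrix.SpecialLinearGroup.coe_one, Matrix.one_mulVec]

theorem fixes_only_zero (H : SzHyp F m) {x : Sz F m} (hx : x ≠ 1) (hodd : Odd (orderOf x))
    (v : Fin 4 → F) (hv : x.1.1 *ᵥ v = v) : v = 0 := by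
  classical
  haveI := H.fin
  haveI := H.finite_Sz
  obtain ⟨r, k, hr, hrdvd, hord⟩ := exists_pow_prime_order hx
  have hfix : ∀ n : ℕ, (x ^ n).1.1 *ᵥ v = v := by
    intro n
    induction n with
    | zero => simp
    | succ n ih =>
      rw [pow_succ, Subgroup.coe_mul, Matrix.SpecialLinearGroup.coe_mul, ← Matrix.mulVec_mulVec, hv,
        ih]
  set y := x ^ k with hy
  have hy1 : y ≠ 1 := fun e => by rw [e, orderOf_one] at hord; exact hr.one_lt.ne hord
  have hr2 : r ≠ 2 := by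
    rintro rfl
    exact Nat.not_even_iff_odd.2 (hodd.of_dvd_nat hrdvd) even_two
  rcases H.trichotomy hy1 with ⟨g, hg⟩ | ⟨g, l, hl⟩ | hell
  · exfalso
    obtain ⟨a, b, hab⟩ := hg
    have h4 : (g * y * g⁻¹) ^ 4 = 1 := hab ▸ H.us_pow_four a b
    rw [conj_pow, conj_eq_one_iff] at h4
    have h5 : r ∣ 2 ^ 2 := hord ▸ orderOf_dvd_of_pow_eq_one h4
    exact hr2 ((Nat.prime_dvd_prime_iff_eq hr Nat.prime_two).1 (hr.dvd_of_dvd_pow h5))
  · have hl1 : l ≠ 1 := fun e => hy1 (conj_eq_one_iff.1 (hl.symm.trans (by rw [e, map_one])))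
    have hw : (H.ds l).1.1 *ᵥ (g.1.1 *ᵥ v) = g.1.1 *ᵥ v := by
      rw [show H.ds l = g * y * g⁻¹ from hl, Matrix.mulVec_mulVec, ← Matrix.SpecialLinearGroup.coe_mul,
        ← Subgroup.coe_mul, inv_mul_cancel_right, Subgroup.coe_mul, Matrix.SpecialLinearGroup.coe_mul,
        ← Matrix.mulVec_mulVec, hfix]
    have h0 := ds_fixes_only_zero H hl1 _ hw
    have h1 := congrArg (g⁻¹.1.1 *ᵥ ·) h0
    simp only [inv_mulVec_cancel] at h1
    rw [h1, Matrix.mulVec_zero]
  · by_contra hv0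
    have hrN : r ∣ (2 ^ (2 * m + 1)) ^ 2 + 1 := hord ▸ orderOf_dvd_of_pow_eq_one hell
    let f : (Fin 4 → F) →ₗ[F] (Fin 4 → F) := Matrix.mulVecLin y.1.1
    let W : Submodule F (Fin 4 → F) := LinearMap.ker (f - LinearMap.id)
    have hW : ∀ u, u ∈ W ↔ y.1.1 *ᵥ u = u := fun u => by simp [W, f, sub_eq_zero]
    let σ : Equiv.Perm (Fin 4 → F) :=
      { toFun := fun u => y.1.1 *ᵥ u
        invFun := fun u => y⁻¹.1.1 *ᵥ u
        left_inv := inv_mulVec_cancel y
        right_inv := fun u => by simpa using inv_mulVec_cancel y⁻¹ u }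
    have hσpow : ∀ (n : ℕ) (u : Fin 4 → F), (σ ^ n) u = (y ^ n).1.1 *ᵥ u := by
      intro n
      induction n with
      | zero => intro u; simp
      | succ n ih =>
        intro u
        rw [pow_succ, Equiv.Perm.mul_apply, ih, pow_succ, Subgroup.coe_mul,
          Matrix.SpecialLinearGroup.coe_mul, ← Matrix.mulVec_mulVec]
        rfl
    haveI := Fintype.ofFinite F
    have hσr : σ ^ (r ^ 1) = 1 := by
      ext u : 1
      rw [pow_one, hσpow, ← hord, pow_orderOf_eq_one]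
      simp
    haveI := Fact.mk hr
    have hmod := Equiv.Perm.card_compl_support_modEq hσr
    have hcompl : (σ.supportᶜ).card = Nat.card W := by
      rw [Nat.card_eq_fintype_card, Fintype.card_subtype]
      congr 1
      ext u
      simp [hW, σ]
    rw [hcompl, Module.natCard_eq_pow_finrank (K := F) (V := W), ← Nat.card_eq_fintype_card,
      Nat.card_fun, Nat.card_fin, H.card] at hmod
    have hd1 : 1 ≤ Module.finrank F W :=
      Module.finrank_pos_iff_exists_ne_zero.2 ⟨⟨v, (hW v).2 (hfix k)⟩, fun e => hv0 (congrArg Subtype.val e)⟩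
    have hd3 : Module.finrank F W ≤ 3 := by
      have h4 : Module.finrank F (Fin 4 → F) = 4 := Module.finrank_fin_fun F
      have hlt : W < ⊤ := by
        rw [lt_top_iff_ne_top]
        intro htop
        apply hy1
        refine Subtype.ext (Subtype.ext ?_)
        ext i j
        have := congrFun ((hW (Pi.single j 1)).1 (htop ▸ Submodule.mem_top)) i
        rw [Matrix.mulVec_single_one] at this
        simpa [Matrix.one_apply, Pi.single_apply] using this
      have := Submodule.finrank_lt hlt.ne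
      omega
    exact prime_not_dvd hr hr2 hd1 hd3 hrN hmod.symm

end Cfsg.Agent.H8.Sz
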